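import Mathlib
import Cfsg.Agent.Helper60.NCDefs

/-!
# CALL S4135, piece SYLCONJ (helper47)

Every `r`-subgroup is conjugate into a given Sylow `r`-subgroup.
-/

set_option autoImplicit false
open Subgroup
open scoped Pointwise

namespace Cfsg.Agent.Helper47.NCSYLCONJ
open Cfsg.Agent.Helper60.NC

variable {G : Type*} [Group G] [Finite G] {r : ℕ} [Fact r.Prime] {N : Subgroup G} {m : ℕ}

/-- SYLCONJ -/
theorem syl_conj (R : Sylow r G) (T : Subgroup G) (hT : IsPGroup r T) :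
    ∃ a : G, ∀ t ∈ T, a⁻¹ * t * a ∈ (R : Subgroup G) := by
  obtain ⟨Q, hQ⟩ := hT.exists_le_sylow
  obtain ⟨g, hg⟩ := MulAction.exists_smul_eq G Q R
  refine ⟨g⁻¹, fun t ht => ?_⟩
  have h1 : MulAut.conj g • t ∈ MulAut.conj g • (Q : Subgroup G) :=
    Subgroup.smul_mem_pointwise_smul t (MulAut.conj g) (Q : Subgroup G) (hQ ht)
  rw [← Sylow.coe_subgroup_smul, hg, MulAut.smul_def, MulAut.conj_apply] at h1
  rwa [inv_inv]

end Cfsg.Agent.Helper47.NCSYLCONJ
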