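import Mathlib
import Cfsg.Agent.Helper3.AicDefs

set_option autoImplicit false

/-!
PIECE P2 of CALL S2202 (helper3): a central odd-order normal subgroup of a group generated by
involutions is trivial when the odd Sylow subgroups of the quotient are cyclic (transfer).
-/

namespace Cfsg.Agent.Helper47

open Cfsg.Agent.Helper3

theorem center_odd_trivial_of_cyclic {G : Type*} [Group G] [Finite G] (N : Subgroup G) [N.Normal]
    (hN : N ≤ Subgroup.center G) (hodd : Odd (Nat.card N)) (hgen : invClosure G = ⊤)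
    (hcyc : ∀ (p : ℕ) [Fact p.Prime], p ≠ 2 → ∀ Q : Subgroup (G ⧸ N), IsPGroup p Q → IsCyclic Q) :
    N = ⊥ := by
  classical
  by_contra hne
  have hcard : Nat.card N ≠ 1 := fun h => hne (Subgroup.card_eq_one.mp h)
  obtain ⟨p, hp, hpd⟩ := Nat.exists_prime_and_dvd hcard
  haveI : Fact p.Prime := ⟨hp⟩
  have hp2 : p ≠ 2 := by
    rintro rfl
    exact (Nat.not_even_iff_odd.mpr hodd) (even_iff_two_dvd.mpr hpd)
  obtain ⟨z, hz⟩ := exists_prime_orderOf_dvd_card' p hpd
  have hzG : orderOf (z : G) = p := by rw [Subgroup.orderOf_coe]; exact hz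
  have hzp : IsPGroup p (Subgroup.zpowers (z : G)) :=
    IsPGroup.of_card (n := 1) (by rw [Nat.card_zpowers, hzG, pow_one])
  obtain ⟨S, hS⟩ := hzp.exists_le_sylow
  have hzS : (z : G) ∈ (S : Subgroup G) := hS (Subgroup.mem_zpowers _)
  -- `S` is abelian
  have hSab : ∀ a b : S, a * b = b * a := by
    let f : S →* G ⧸ N := (QuotientGroup.mk' N).comp (S : Subgroup G).subtype
    haveI : IsCyclic f.range :=
      hcyc p hp2 f.range (IsPGroup.of_surjective S.isPGroup' f.rangeRestrict
        f.rangeRestrict_surjective)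
    refine commutative_of_cyclic_center_quotient f.rangeRestrict ?_
    intro s hs
    rw [MonoidHom.ker_rangeRestrict, MonoidHom.mem_ker] at hs
    have hsN : (s : G) ∈ N := by
      have : (QuotientGroup.mk' N) (s : G) = 1 := hs
      exact (QuotientGroup.eq_one_iff _).mp this
    rw [Subgroup.mem_center_iff]
    intro g
    apply Subtype.ext
    exact Subgroup.mem_center_iff.mp (hN hsN) g
  letI : CommGroup S := { (inferInstance : Group S) with mul_comm := hSab }
  let V : G →* S := MonoidHom.transfer (MonoidHom.id S)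
  -- `V` kills involutions
  have hVt : ∀ t : G, orderOf t = 2 → V t = 1 := by
    intro t ht
    have h1 : orderOf (V t) ∣ 2 := by
      apply orderOf_dvd_of_pow_eq_one
      rw [← map_pow, ← ht, pow_orderOf_eq_one, map_one]
    obtain ⟨k, hk⟩ := S.isPGroup' (V t)
    have h2 : orderOf (V t) ∣ p ^ k := orderOf_dvd_of_pow_eq_one hk
    have hcop : Nat.Coprime 2 (p ^ k) :=
      ((Nat.coprime_primes Nat.prime_two hp).mpr hp2.symm).pow_right k
    have h3 : orderOf (V t) ∣ 1 := hcop ▸ Nat.dvd_gcd h1 h2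
    exact orderOf_eq_one_iff.mp (Nat.dvd_one.mp h3)
  have hker : (⊤ : Subgroup G) ≤ V.ker := by
    rw [← hgen]
    exact (Subgroup.closure_le _).mpr (fun t ht => MonoidHom.mem_ker.mpr (hVt t ht))
  have hVz : V (z : G) = 1 := MonoidHom.mem_ker.mp (hker (Subgroup.mem_top _))
  have hzc : (z : G) ∈ Subgroup.center G := hN z.2
  have hpow := MonoidHom.transfer_eq_pow (MonoidHom.id S) (z : G) (by
    intro k g₀ _
    have hc : (z : G) ^ k ∈ Subgroup.center G := Subgroup.pow_mem _ hzc k
    have := Subgroup.mem_center_iff.mp hc g₀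
    rw [mul_assoc, ← this, inv_mul_cancel_left])
  have hzi : (z : G) ^ (S : Subgroup G).index = 1 := by
    have h4 : V (z : G) = MonoidHom.id S ⟨(z : G) ^ (S : Subgroup G).index, _⟩ := hpow
    rw [hVz] at h4
    exact (congrArg Subtype.val h4).symm
  have hdvd0 : orderOf (z : G) ∣ (S : Subgroup G).index := orderOf_dvd_of_pow_eq_one hzi
  have hdvd : p ∣ (S : Subgroup G).index := by
    obtain ⟨c, hc⟩ := hdvd0
    exact ⟨c, by rw [hc, hzG]⟩
  exact S.not_dvd_index hdvd

end Cfsg.Agent.Helper47
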