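import Mathlib

set_option autoImplicit false

/-!
PIECE P3 of CALL S2202 (helper3): averaging fixed point for an odd-order group acting on a
regular set of an elementary abelian 2-group that it normalizes.
-/

namespace Cfsg.Agent.Helper47

theorem exists_fixed_of_odd_normalizing {G Ω : Type*} [Group G] [MulAction G Ω] [Finite G]
    (S R : Subgroup G) (Y : Set Ω) (hS2 : ∀ s ∈ S, s ^ 2 = 1)
    (hSR : ∀ r ∈ R, ∀ s ∈ S, r * s * r⁻¹ ∈ S) (hR : Odd (Nat.card R))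
    (hYS : ∀ s ∈ S, ∀ y ∈ Y, s • y ∈ Y) (hYR : ∀ r ∈ R, ∀ y ∈ Y, r • y ∈ Y)
    (hreg : ∀ x ∈ Y, ∀ y ∈ Y, ∃! s : G, s ∈ S ∧ s • x = y) (hne : Y.Nonempty) :
    ∃ x ∈ Y, ∀ r ∈ R, r • x = x := by
  classical
  obtain ⟨x0, hx0⟩ := hne
  haveI : Fintype R := Fintype.ofFinite R
  have hinv : ∀ a ∈ S, a⁻¹ = a := fun a ha => by
    rw [inv_eq_iff_mul_eq_one, ← sq]; exact hS2 a ha
  have hcomm : ∀ a ∈ S, ∀ b ∈ S, a * b = b * a := by
    intro a ha b hb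
    have h3 := hinv (a * b) (S.mul_mem ha hb)
    rw [mul_inv_rev, hinv a ha, hinv b hb] at h3
    exact h3.symm
  letI : CommGroup S :=
    { (inferInstance : Group S) with mul_comm := fun a b => Subtype.ext (hcomm a a.2 b b.2) }
  choose c hc hcu using fun r : R => hreg x0 hx0 ((r : G) • x0) (hYR r r.2 x0 hx0)
  let cS : R → S := fun r => ⟨c r, (hc r).1⟩
  let φ : R → (S →* S) := fun r0 =>
    { toFun := fun s => ⟨(r0 : G) * s * (r0 : G)⁻¹, hSR r0 r0.2 s s.2⟩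
      map_one' := by ext; simp
      map_mul' := fun a b => by ext; simp [mul_assoc] }
  have hcoc : ∀ r0 r : R, cS (r0 * r) = φ r0 (cS r) * cS r0 := by
    intro r0 r
    apply Subtype.ext
    refine (hcu (r0 * r) _ ⟨?_, ?_⟩).symm
    · exact S.mul_mem (hSR r0 r0.2 _ (hc r).1) (hc r0).1
    · show ((r0 : G) * c r * (r0 : G)⁻¹ * c r0) • x0 = ((r0 * r : R) : G) • x0
      rw [mul_smul, (hc r0).2, mul_smul, inv_smul_smul, mul_smul, (hc r).2, Subgroup.coe_mul,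
        mul_smul]
  let m : S := ∏ r : R, cS r
  refine ⟨(m : G) • x0, hYS m m.2 x0 hx0, ?_⟩
  intro r0 hr0
  have key : φ ⟨r0, hr0⟩ m * cS ⟨r0, hr0⟩ = m := by
    have h1 : φ ⟨r0, hr0⟩ m = ∏ r : R, φ ⟨r0, hr0⟩ (cS r) := map_prod _ _ _
    have h2 : ∀ r : R, φ ⟨r0, hr0⟩ (cS r) = cS (⟨r0, hr0⟩ * r) * (cS ⟨r0, hr0⟩)⁻¹ := by
      intro r; rw [hcoc]; simp
    rw [h1]
    simp_rw [h2]
    rw [Finset.prod_mul_distrib, Finset.prod_const, Finset.card_univ]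
    have h3 : ∏ r : R, cS (⟨r0, hr0⟩ * r) = m :=
      Fintype.prod_equiv (Equiv.mulLeft ⟨r0, hr0⟩) _ _ (fun r => rfl)
    rw [h3]
    have h4 : ((cS ⟨r0, hr0⟩)⁻¹) ^ Fintype.card R = (cS ⟨r0, hr0⟩)⁻¹ := by
      obtain ⟨k, hk⟩ := hR
      rw [Nat.card_eq_fintype_card] at hk
      rw [hk, pow_succ, pow_mul]
      have h5 : ((cS ⟨r0, hr0⟩)⁻¹) ^ 2 = 1 := by
        apply Subtype.ext
        exact hS2 _ (S.inv_mem (cS ⟨r0, hr0⟩).2)
      rw [h5, one_pow, one_mul]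
    rw [h4, inv_mul_cancel_right]
  have h6 := congrArg (fun s : S => (s : G) • x0) key
  calc r0 • ((m : G) • x0) = (r0 * m * r0⁻¹) • (r0 • x0) := by
        rw [mul_smul, mul_smul, inv_smul_smul]
    _ = (r0 * m * r0⁻¹) • ((c ⟨r0, hr0⟩) • x0) := by rw [(hc ⟨r0, hr0⟩).2]
    _ = (m : G) • x0 := by
        rw [← mul_smul]; exact h6

end Cfsg.Agent.Helper47
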