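import Mathlib
import Cfsg.Prelude.Def_Local
import Cfsg.Agent.Helper12.HupMain
import Cfsg.Agent.Helper67.ElemAbAction

/-!
# Huppert's theorem in group form for a normal elementary abelian 2-subgroup

Piece P2 of the CALL for S3797.
-/

namespace Cfsg.Agent.Helper47

open Subgroup

universe u
variable {G : Type u} [Group G] [Finite G]

theorem shaw_hup (hsol : Group.IsSolvable G) (Z : Subgroup G) [Z.Normal]
    (hZ2 : ∀ z ∈ Z, z * z = 1) (hZnt : Z ≠ ⊥)
    (htr : ∀ x ∈ Z, ∀ y ∈ Z, x ≠ 1 → y ≠ 1 → ∃ g : G, g * x * g⁻¹ = y) :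
    ∃ A : Subgroup G, A.Normal ∧
      (∀ a ∈ A, ∀ b ∈ A, a * b * a⁻¹ * b⁻¹ ∈ centralizer (Z : Set G)) ∧
      ∀ W : Subgroup G, W ≤ Z → (∀ a ∈ A, ∀ w ∈ W, a * w * a⁻¹ ∈ W) → W = ⊥ ∨ W = Z := by
  classical
  have : Fact (Nat.Prime 2) := ⟨Nat.prime_two⟩
  have hcomm : ∀ a ∈ Z, ∀ b ∈ Z, a * b = b * a := by
    intro a ha b hb
    have h1 := hZ2 a ha
    have h2 := hZ2 b hb
    have h3 := hZ2 (a * b) (Z.mul_mem ha hb)
    have ha' : a⁻¹ = a := inv_eq_of_mul_eq_one_left h1
    have hb' : b⁻¹ = b := inv_eq_of_mul_eq_one_left h2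
    have hab' : (a * b)⁻¹ = a * b := inv_eq_of_mul_eq_one_left h3
    calc a * b = (a * b)⁻¹ := hab'.symm
      _ = b⁻¹ * a⁻¹ := mul_inv_rev a b
      _ = b * a := by rw [ha', hb']
  obtain ⟨E, hEP⟩ : ∃ E : Cfsg.Agent.Helper67.ElemAb 2 G, E.P = Z :=
    ⟨{ P := Z, normal := inferInstance, comm := hcomm,
       exp := fun a ha => by rw [pow_two]; exact hZ2 a ha }, rfl⟩
  have : Finite (Additive E.P ≃ₗ[ZMod 2] Additive E.P) := Cfsg.Agent.Helper12.finite_linEquiv
  -- nontriviality
  obtain ⟨z0, hz0Z, hz01⟩ : ∃ z ∈ Z, z ≠ 1 := by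
    by_contra hcon
    apply hZnt
    rw [Subgroup.eq_bot_iff_forall]
    intro z hz
    by_contra hz1
    exact hcon ⟨z, hz, hz1⟩
  have hz0E : z0 ∈ E.P := hEP ▸ hz0Z
  have : Nontrivial (Additive E.P) := by
    refine ⟨⟨E.vec z0 hz0E, 0, ?_⟩⟩
    intro h
    apply hz01
    have := congrArg E.val h
    rw [E.val_vec, E.val_zero] at this
    exact this
  -- the representation
  let ρ : G →* (Additive E.P ≃ₗ[ZMod 2] Additive E.P) :=
    (LinearMap.GeneralLinearGroup.generalLinearEquiv (ZMod 2) (Additive E.P)).toMonoidHom.comp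
      E.Θ.toHomUnits
  have hρ : ∀ (g : G) (v : Additive E.P), ρ g v = E.Θ g v := fun g v => rfl
  have hρval : ∀ (g : G) (v : Additive E.P), E.val (ρ g v) = g * E.val v * g⁻¹ := fun g v => rfl
  have := hsol
  have hsolH : Group.IsSolvable ρ.range :=
    Group.isSolvable_of_surjective (f := ρ.rangeRestrict) ρ.rangeRestrict_surjective
  have htransH : ∀ v w : Additive E.P, v ≠ 0 → w ≠ 0 →
      ∃ h : ρ.range, (h : Additive E.P ≃ₗ[ZMod 2] Additive E.P) v = w := by
    intro v w hv hw
    have hv1 : E.val v ≠ 1 := fun h => hv ((E.val_eq_one_iff v).mp h)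
    have hw1 : E.val w ≠ 1 := fun h => hw ((E.val_eq_one_iff w).mp h)
    obtain ⟨g, hg⟩ := htr (E.val v) (hEP ▸ E.val_mem v) (E.val w) (hEP ▸ E.val_mem w) hv1 hw1
    refine ⟨⟨ρ g, g, rfl⟩, ?_⟩
    apply E.val_injective
    show E.val (ρ g v) = E.val w
    rw [hρval, hg]
  rcases Cfsg.Agent.Helper12.hup_main (p := 2) ρ.range hsolH htransH with
    ⟨A0, hA0n, hA0c, hA0irr⟩ | hcard
  · refine ⟨A0.comap ρ.rangeRestrict, hA0n.comap _, ?_, ?_⟩
    · intro a ha b hb
      have hab := hA0c _ ha _ hb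
      have hρab : ρ a * ρ b = ρ b * ρ a := by
        have := congrArg (Subtype.val) hab
        exact this
      have hρc : ρ (a * b * a⁻¹ * b⁻¹) = 1 := by
        rw [map_mul, map_mul, map_mul, map_inv, map_inv, hρab]
        group
      rw [Subgroup.mem_centralizer_iff]
      intro z hz
      have hzE : z ∈ E.P := hEP ▸ hz
      have h1 := hρval (a * b * a⁻¹ * b⁻¹) (E.vec z hzE)
      rw [hρc] at h1
      have h2 : E.val ((1 : Additive E.P ≃ₗ[ZMod 2] Additive E.P) (E.vec z hzE)) = z := rfl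
      rw [h2, E.val_vec] at h1
      have h3 : a * b * a⁻¹ * b⁻¹ * z = z * (a * b * a⁻¹ * b⁻¹) := by
        nth_rewrite 2 [h1]
        group
      exact h3.symm
    · intro W hWZ hWinv
      have hWE : ∀ w ∈ W, w ∈ E.P := fun w hw => hEP ▸ hWZ hw
      let W0 : AddSubgroup (Additive E.P) :=
        { carrier := {v | E.val v ∈ W}
          add_mem' := fun {a b} ha hb => by
            show E.val (a + b) ∈ W
            rw [E.val_add]; exact W.mul_mem ha hb
          zero_mem' := by
            show E.val 0 ∈ W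
            rw [E.val_zero]; exact W.one_mem
          neg_mem' := fun {a} ha => by
            show E.val (-a) ∈ W
            have : E.val (-a) = (E.val a)⁻¹ := rfl
            rw [this]; exact W.inv_mem ha }
      have hW0 : ∀ v, v ∈ AddSubgroup.toZModSubmodule 2 W0 ↔ E.val v ∈ W := fun v => Iff.rfl
      rcases hA0irr (AddSubgroup.toZModSubmodule 2 W0) (by
        intro a0 ha0 v hv
        obtain ⟨g, rfl⟩ := ρ.rangeRestrict_surjective a0
        rw [hW0] at hv ⊢
        have : E.val (((ρ.rangeRestrict g : ρ.range) :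
            Additive E.P ≃ₗ[ZMod 2] Additive E.P) v) = g * E.val v * g⁻¹ := rfl
        rw [this]
        exact hWinv g ha0 _ hv) with hbot | htop
      · left
        rw [Subgroup.eq_bot_iff_forall]
        intro w hw
        have h1 : E.vec w (hWE w hw) ∈ AddSubgroup.toZModSubmodule 2 W0 := by
          rw [hW0, E.val_vec]; exact hw
        rw [hbot, Submodule.mem_bot] at h1
        have := congrArg E.val h1
        rw [E.val_vec, E.val_zero] at this
        exact this
      · right
        apply le_antisymm hWZ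
        intro z hz
        have hzE : z ∈ E.P := hEP ▸ hz
        have h1 : E.vec z hzE ∈ AddSubgroup.toZModSubmodule 2 W0 := by
          rw [htop]; exact Submodule.mem_top
        rw [hW0, E.val_vec] at h1
        exact h1
  · exfalso
    -- the cardinality is even
    have hv0 : E.vec z0 hz0E ≠ 0 := by
      intro h
      apply hz01
      have := congrArg E.val h
      rw [E.val_vec, E.val_zero] at this
      exact this
    have hv2 : (2 : ℕ) • E.vec z0 hz0E = 0 := by
      apply E.val_injective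
      rw [two_nsmul, E.val_add, E.val_vec, E.val_zero]
      exact hZ2 z0 hz0Z
    have hord : addOrderOf (E.vec z0 hz0E) = 2 := by
      have hdvd := addOrderOf_dvd_of_nsmul_eq_zero hv2
      rcases (Nat.dvd_prime Nat.prime_two).mp hdvd with h | h
      · exfalso
        apply hv0
        exact AddMonoid.addOrderOf_eq_one_iff.mp h
      · exact h
    have h2dvd' : addOrderOf (E.vec z0 hz0E) ∣ Nat.card (Additive E.P) :=
      addOrderOf_dvd_natCard _
    obtain ⟨n, hn⟩ : ∃ n, n = Nat.card (Additive E.P) := ⟨_, rfl⟩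
    rw [← hn] at h2dvd' hcard
    rw [hord] at h2dvd'
    simp only [Set.mem_insert_iff, Set.mem_singleton_iff] at hcard
    rcases hcard with h | h | h | h | h | h <;> rw [h] at h2dvd' <;> omega

end Cfsg.Agent.Helper47
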