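import Mathlib
import Cfsg.Prelude.Def_Local
import Cfsg.Agent.Helper47.ShawP2
import Cfsg.Agent.Helper19.ShawStep2

/-!
# Shaw's theorem, step 1: the 2-elements centralize `Z`

Piece P4 of the CALL for S3797.
-/

namespace Cfsg.Agent.Helper47

open Subgroup

open scoped Pointwise

universe u
variable {G : Type u} [Group G] [Finite G]

/-- normalizers grow in a Sylow subgroup -/
theorem shaw_eq_sylow_of_normalizer_inf_le {p : ℕ} [Fact p.Prime] {Q : Subgroup G}
    (P : Sylow p G) (hQP : Q ≤ (P : Subgroup G))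
    (h : (P : Subgroup G) ⊓ Subgroup.normalizer (Q : Set G) ≤ Q) : (P : Subgroup G) = Q := by
  have : Group.IsNilpotent ↥(P : Subgroup G) := P.isPGroup'.isNilpotent
  have hnc : NormalizerCondition ↥(P : Subgroup G) := Group.normalizerCondition_of_isNilpotent
  rw [normalizerCondition_iff_only_full_group_self_normalizing] at hnc
  have h1 : Subgroup.normalizer
      ((Q.subgroupOf (P : Subgroup G) : Subgroup ↥(P : Subgroup G)) : Set ↥(P : Subgroup G))
      = Q.subgroupOf (P : Subgroup G) := by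
    apply le_antisymm _ Subgroup.le_normalizer
    rw [← Subgroup.subgroupOf_normalizer_eq hQP]
    intro y hy
    rw [Subgroup.mem_subgroupOf] at hy ⊢
    exact h ⟨y.2, hy⟩
  have h2 := hnc _ h1
  rw [Subgroup.subgroupOf_eq_top] at h2
  exact le_antisymm h2 hQP

theorem shaw_step1 (hsol : Group.IsSolvable G) (Z : Subgroup G) [Z.Normal]
    (hZ2 : ∀ z ∈ Z, z * z = 1) (hZnt : Z ≠ ⊥) (hinvol : ∀ x : G, x * x = 1 → x ∈ Z)
    (htr : ∀ x ∈ Z, ∀ y ∈ Z, x ≠ 1 → y ≠ 1 → ∃ g : G, g * x * g⁻¹ = y) :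
    ∀ x : G, (∃ k : ℕ, x ^ 2 ^ k = 1) → x ∈ centralizer (Z : Set G) := by
  classical
  have : Fact (Nat.Prime 2) := ⟨Nat.prime_two⟩
  obtain ⟨C, hCdef⟩ : ∃ C : Subgroup G, C = centralizer (Z : Set G) := ⟨_, rfl⟩
  have hCn : C.Normal := by rw [hCdef]; infer_instance
  have hCmem : ∀ x : G, x ∈ C ↔ ∀ z ∈ Z, z * x = x * z := fun x => by
    rw [hCdef]; exact Subgroup.mem_centralizer_iff
  have hcomm : ∀ a ∈ Z, ∀ b ∈ Z, a * b = b * a := by
    intro a ha b hb
    have h1 := hZ2 a ha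
    have h2 := hZ2 b hb
    have h3 := hZ2 (a * b) (Z.mul_mem ha hb)
    have ha' : a⁻¹ = a := inv_eq_of_mul_eq_one_left h1
    have hb' : b⁻¹ = b := inv_eq_of_mul_eq_one_left h2
    have hab' : (a * b)⁻¹ = a * b := inv_eq_of_mul_eq_one_left h3
    calc a * b = (a * b)⁻¹ := hab'.symm
      _ = b⁻¹ * a⁻¹ := mul_inv_rev a b
      _ = b * a := by rw [ha', hb']
  have hZC : Z ≤ C := fun z hz => (hCmem z).mpr (fun w hw => hcomm w hw z hz)
  have hZ2grp : IsPGroup 2 Z := by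
    intro z
    refine ⟨1, ?_⟩
    apply Subtype.ext
    rw [pow_one, pow_two]
    exact hZ2 z z.2
  -- a Sylow 2-subgroup of `C` containing `Z`
  obtain ⟨Tc, hTc⟩ := (hZ2grp.comap_subtype (K := C)).exists_le_sylow
  obtain ⟨T, hTdef⟩ : ∃ T : Subgroup G, T = (Tc : Subgroup C).map C.subtype := ⟨_, rfl⟩
  have hTC : T ≤ C := by rw [hTdef]; exact Subgroup.map_subtype_le _
  have hZT : Z ≤ T := by
    intro z hz
    rw [hTdef]
    exact ⟨⟨z, hZC hz⟩, hTc (Subgroup.mem_subgroupOf.mpr hz), rfl⟩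
  have hT2 : IsPGroup 2 T := by rw [hTdef]; exact Tc.isPGroup'.map _
  have hfrat : normalizer (T : Set G) ⊔ C = ⊤ := by
    rw [hTdef]; exact Sylow.normalizer_sup_eq_top Tc
  have hTmax : ∀ Q : Subgroup G, IsPGroup 2 Q → T ≤ Q → Q ≤ C → Q = T := by
    intro Q hQ hTQ hQC
    have h1 : Q.subgroupOf C = Tc := Tc.is_maximal' (hQ.comap_subtype) (by
      intro t ht
      rw [Subgroup.mem_subgroupOf]
      apply hTQ
      rw [hTdef]
      exact ⟨t, ht, rfl⟩)
    apply le_antisymm _ hTQ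
    intro q hq
    have h2 : (⟨q, hQC hq⟩ : C) ∈ Q.subgroupOf C := Subgroup.mem_subgroupOf.mpr hq
    rw [h1] at h2
    rw [hTdef]
    exact ⟨⟨q, hQC hq⟩, h2, rfl⟩
  obtain ⟨G1, hG1def⟩ : ∃ G1 : Subgroup G, G1 = normalizer (T : Set G) := ⟨_, rfl⟩
  have hTG1 : T ≤ G1 := by rw [hG1def]; exact Subgroup.le_normalizer
  -- the hypotheses hold in `G1`
  have hsol1 : Group.IsSolvable G1 := by
    have := hsol
    infer_instance
  have hZ1n : (Z.subgroupOf G1).Normal := Subgroup.normal_subgroupOf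
  have hZ1_2 : ∀ z ∈ Z.subgroupOf G1, z * z = 1 := by
    intro z hz
    apply Subtype.ext
    exact hZ2 z (Subgroup.mem_subgroupOf.mp hz)
  have hZ1nt : Z.subgroupOf G1 ≠ ⊥ := by
    intro h
    apply hZnt
    rw [Subgroup.eq_bot_iff_forall]
    intro z hz
    have h1 : (⟨z, hTG1 (hZT hz)⟩ : G1) ∈ Z.subgroupOf G1 := Subgroup.mem_subgroupOf.mpr hz
    rw [h, Subgroup.mem_bot] at h1
    exact congrArg Subtype.val h1
  have hinvol1 : ∀ x : G1, x * x = 1 → x ∈ Z.subgroupOf G1 := by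
    intro x hx
    rw [Subgroup.mem_subgroupOf]
    apply hinvol
    exact congrArg Subtype.val hx
  have htr1 : ∀ x ∈ Z.subgroupOf G1, ∀ y ∈ Z.subgroupOf G1, x ≠ 1 → y ≠ 1 →
      ∃ g : G1, g * x * g⁻¹ = y := by
    intro x hx y hy hx1 hy1
    rw [Subgroup.mem_subgroupOf] at hx hy
    obtain ⟨g, hg⟩ := htr x hx y hy (fun h => hx1 (Subtype.ext h)) (fun h => hy1 (Subtype.ext h))
    have hgmem : g ∈ ((normalizer (T : Set G) ⊔ C : Subgroup G) : Set G) := by
      rw [hfrat]; trivial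
    rw [Subgroup.mul_normal, Set.mem_mul] at hgmem
    obtain ⟨n, hn, c, hc, rfl⟩ := hgmem
    refine ⟨⟨n, by rw [hG1def]; exact hn⟩, ?_⟩
    apply Subtype.ext
    show n * (x : G) * n⁻¹ = y
    rw [← hg]
    have hcx : (x : G) * c = c * x := (hCmem c).mp hc x hx
    have hcx' : c * (x : G) * c⁻¹ = x := by rw [← hcx]; group
    calc n * (x : G) * n⁻¹ = n * (c * (x : G) * c⁻¹) * n⁻¹ := by rw [hcx']
      _ = n * c * x * (n * c)⁻¹ := by group
  obtain ⟨A1, hA1n, hA1c, hA1irr⟩ := shaw_hup hsol1 (Z.subgroupOf G1) hZ1_2 hZ1nt htr1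
  have hP1n : (T.subgroupOf G1).Normal := by rw [hG1def]; exact Subgroup.normal_in_normalizer
  have hstep2 : ∀ s : G1, s * s ∈ T.subgroupOf G1 → s ∈ T.subgroupOf G1 := by
    intro s hs
    refine Cfsg.Agent.Helper19.shaw_step2 (Z.subgroupOf G1) hZ1_2 hinvol1 A1 hA1c hA1irr
      (T.subgroupOf G1) (hT2.comap_subtype)
      (fun z hz => Subgroup.mem_subgroupOf.mpr (hZT (Subgroup.mem_subgroupOf.mp hz)))
      ?_ ?_ s hs
    · intro t ht
      rw [Subgroup.mem_centralizer_iff]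
      intro z hz
      apply Subtype.ext
      exact (hCmem t).mp (hTC (Subgroup.mem_subgroupOf.mp ht)) z (Subgroup.mem_subgroupOf.mp hz)
    · rintro x hx ⟨k, hk⟩
      have hxC : (x : G) ∈ C := (hCmem x).mpr (fun z hz => by
        have h1 := (Subgroup.mem_centralizer_iff.mp hx) ⟨z, hTG1 (hZT hz)⟩
          (Subgroup.mem_subgroupOf.mpr hz)
        exact congrArg Subtype.val h1)
      have hk' : (x : G) ^ 2 ^ k = 1 := by
        have h1 := congrArg Subtype.val hk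
        exact h1
      have hx2 : IsPGroup 2 (zpowers (x : G)) := by
        rintro ⟨y, hy⟩
        obtain ⟨n, rfl⟩ := mem_zpowers_iff.mp hy
        refine ⟨k, Subtype.ext ?_⟩
        show ((x : G) ^ n) ^ 2 ^ k = 1
        rw [← zpow_natCast, ← zpow_mul, mul_comm, zpow_mul, zpow_natCast, hk', one_zpow]
      have hle : zpowers (x : G) ≤ normalizer (T : Set G) := by
        rw [zpowers_le, ← hG1def]; exact x.2
      have hQ : IsPGroup 2 (zpowers (x : G) ⊔ T : Subgroup G) :=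
        IsPGroup.to_sup_of_normal_right' hx2 hT2 hle
      have h3 := hTmax _ hQ le_sup_right (sup_le (zpowers_le.mpr hxC) hTC)
      rw [Subgroup.mem_subgroupOf, ← h3]
      exact (le_sup_left : zpowers (x : G) ≤ _) (mem_zpowers _)
  -- `T` is a Sylow 2-subgroup of `G`
  obtain ⟨S, hS⟩ := hT2.exists_le_sylow
  have hST : (S : Subgroup G) = T := shaw_eq_sylow_of_normalizer_inf_le S hS (by
    rintro y ⟨hyS, hyN⟩
    by_contra hyT
    obtain ⟨k, hk⟩ := S.isPGroup' ⟨y, hyS⟩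
    have hk' : y ^ 2 ^ k = 1 := congrArg Subtype.val hk
    have hex : ∃ j, y ^ 2 ^ j ∈ T := ⟨k, by rw [hk']; exact T.one_mem⟩
    obtain ⟨j, hj, hjmin⟩ : ∃ j, y ^ 2 ^ j ∈ T ∧ ∀ m < j, y ^ 2 ^ m ∉ T :=
      ⟨Nat.find hex, Nat.find_spec hex, fun m hm => Nat.find_min hex hm⟩
    rcases j with _ | m
    · rw [pow_zero, pow_one] at hj
      exact hyT hj
    · have hsN : y ^ 2 ^ m ∈ G1 := G1.pow_mem (by rw [hG1def]; exact hyN) _
      have hss : y ^ 2 ^ m * y ^ 2 ^ m ∈ T := by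
        rw [← pow_add, ← two_mul, ← pow_succ']
        exact hj
      have h4 := hstep2 ⟨y ^ 2 ^ m, hsN⟩ (Subgroup.mem_subgroupOf.mpr hss)
      exact hjmin m (Nat.lt_succ_self m) (Subgroup.mem_subgroupOf.mp h4))
  -- conclusion
  rintro x ⟨k, hk⟩
  have hx2 : IsPGroup 2 (zpowers x) := by
    rintro ⟨y, hy⟩
    obtain ⟨n, rfl⟩ := mem_zpowers_iff.mp hy
    refine ⟨k, Subtype.ext ?_⟩
    show (x ^ n) ^ 2 ^ k = 1
    rw [← zpow_natCast, ← zpow_mul, mul_comm, zpow_mul, zpow_natCast, hk, one_zpow]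
  obtain ⟨S', hS'⟩ := hx2.exists_le_sylow
  obtain ⟨g, hg⟩ := MulAction.exists_smul_eq G S S'
  have hxS' : x ∈ ((g • S : Sylow 2 G) : Subgroup G) := by
    rw [hg]; exact hS' (mem_zpowers x)
  rw [Sylow.coe_subgroup_smul, Subgroup.mem_pointwise_smul_iff_inv_smul_mem, hST] at hxS'
  have h5 : g⁻¹ * x * g ∈ C := by
    apply hTC
    have h6 : (MulAut.conj g)⁻¹ • x = g⁻¹ * x * g := by
      rw [MulAut.smul_def, MulAut.conj_inv_apply]
    rw [← h6]; exact hxS'
  rw [← hCdef]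
  have h7 := hCn.conj_mem _ h5 g
  have h8 : g * (g⁻¹ * x * g) * g⁻¹ = x := by group
  rw [h8] at h7
  exact h7

end Cfsg.Agent.Helper47
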