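import Mathlib
import Cfsg.Prelude.Def_CaseTheorems
import Cfsg.Prelude.Def_OddOrderLocal
import Cfsg.Agent.Helper64.MaxClass

/-!
# Cubes in a group of order 81 of maximal class (piece F of the CALL for S3888)
-/

set_option autoImplicit false

namespace Cfsg.Agent.Helper47

open scoped commutatorElement

theorem bk_cube_81 {X : Type*} [Group X] [Finite X] (hX : Nat.card X = 81)
    (h1 : Nat.card ((⊤ : Subgroup X).lowerCentralSeries 1) = 9)
    (h2 : Nat.card ((⊤ : Subgroup X).lowerCentralSeries 2) = 3) :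
    ∃ M : Subgroup X, M ≠ ⊤ ∧
      ∀ s : X, s ∉ M → s ^ 3 ∈ (⊤ : Subgroup X).lowerCentralSeries 2 := by
  have : Fact (Nat.Prime 3) := ⟨Nat.prime_three⟩
  have hP : IsPGroup 3 X := IsPGroup.of_card (n := 4) (by rw [hX]; norm_num)
  obtain ⟨L1, hL1⟩ : ∃ L : Subgroup X, L = (⊤ : Subgroup X).lowerCentralSeries 1 := ⟨_, rfl⟩
  obtain ⟨L2, hL2⟩ : ∃ L : Subgroup X, L = (⊤ : Subgroup X).lowerCentralSeries 2 := ⟨_, rfl⟩
  rw [← hL1] at h1
  rw [← hL2] at h2 ⊢
  have hL21 : L2 = ⁅L1, (⊤ : Subgroup X)⁆ := by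
    rw [hL2, hL1, Subgroup.lowerCentralSeries_succ]
  have hL1' : L1 = ⁅(⊤ : Subgroup X), (⊤ : Subgroup X)⁆ := by
    rw [hL1, Subgroup.lowerCentralSeries_succ, Subgroup.lowerCentralSeries_zero]
  have hL1n : L1.Normal := by rw [hL1']; infer_instance
  have hL2n : L2.Normal := by rw [hL21]; infer_instance
  have hL2ne : L2 ≠ ⊥ := by
    intro h
    rw [h, Subgroup.card_bot] at h2
    omega
  have hL3 : ⁅L2, (⊤ : Subgroup X)⁆ = ⊥ := by
    have h3 := Cfsg.Agent.Helper64.maxclass_lcs_card_step hP 2 (by rw [← hL2]; exact hL2ne)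
    rw [← hL2, h2, Subgroup.lowerCentralSeries_succ, ← hL2] at h3
    apply Subgroup.eq_bot_of_card_le
    omega
  have hL2c : ∀ z ∈ L2, ∀ g : X, z * g = g * z := by
    intro z hz g
    have h3 : ⁅z, g⁆ ∈ ⁅L2, (⊤ : Subgroup X)⁆ :=
      Subgroup.commutator_mem_commutator hz (Subgroup.mem_top g)
    rw [hL3, Subgroup.mem_bot, commutatorElement_eq_one_iff_mul_comm] at h3
    exact h3
  have hL21le : L2 ≤ L1 := by
    rw [hL2, hL1]
    exact (⊤ : Subgroup X).lowerCentralSeries_antitone (by norm_num)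
  have hcommL2 : ∀ u ∈ L1, ∀ g : X, u * g * u⁻¹ * g⁻¹ ∈ L2 := by
    intro u hu g
    rw [hL21]
    exact Subgroup.commutator_mem_commutator hu (Subgroup.mem_top g)
  have hcard1 : Nat.card (X ⧸ L1) = 9 := by
    have h3 := Subgroup.card_eq_card_quotient_mul_card_subgroup L1
    rw [hX, h1] at h3
    omega
  have hnc : ¬ IsCyclic (X ⧸ L1) := by
    intro hcyc
    have hle : L2 ≤ L1.comap (MonoidHom.id X) := hL21le
    obtain ⟨f, hf⟩ : ∃ f : X ⧸ L2 →* X ⧸ L1, ∀ g : X, f (QuotientGroup.mk g) = QuotientGroup.mk g :=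
      ⟨QuotientGroup.map L2 L1 (MonoidHom.id X) hle, fun g => rfl⟩
    have hker : f.ker ≤ Subgroup.center (X ⧸ L2) := by
      intro q hq
      obtain ⟨g, rfl⟩ := QuotientGroup.mk_surjective q
      rw [MonoidHom.mem_ker, hf] at hq
      have hg : g ∈ L1 := (QuotientGroup.eq_one_iff g).mp hq
      rw [Subgroup.mem_center_iff]
      intro t
      obtain ⟨t', rfl⟩ := QuotientGroup.mk_surjective t
      rw [← QuotientGroup.mk_mul, ← QuotientGroup.mk_mul, QuotientGroup.eq]
      have h5 := hcommL2 g⁻¹ (L1.inv_mem hg) t'⁻¹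
      have h6 : (t' * g)⁻¹ * (g * t') = g⁻¹ * t'⁻¹ * g⁻¹⁻¹ * t'⁻¹⁻¹ := by group
      rw [h6]
      exact h5
    have hab : ∀ a b : X ⧸ L2, a * b = b * a := commutative_of_cyclic_center_quotient f hker
    have hle' : L1 ≤ L2 := by
      rw [hL1', Subgroup.commutator_le]
      intro g _ h _
      rw [← QuotientGroup.eq_one_iff, commutatorElement_def]
      simp only [QuotientGroup.mk_mul, QuotientGroup.mk_inv]
      rw [hab (g : X ⧸ L2) h]
      group
    have h3 := Subgroup.card_le_of_le hle'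
    omega
  have hdiv : ∀ d : ℕ, d ∣ 9 → d = 1 ∨ d = 3 ∨ d = 9 := by
    intro d hd
    have h3 : d ∈ Nat.divisors 9 := Nat.mem_divisors.mpr ⟨hd, by norm_num⟩
    have hd9 : Nat.divisors 9 = {1, 3, 9} := by decide
    rw [hd9] at h3
    simpa using h3
  have hcube : ∀ s : X, s ^ 3 ∈ L1 := by
    intro s
    rw [← QuotientGroup.eq_one_iff, QuotientGroup.mk_pow]
    have hdvd : orderOf (s : X ⧸ L1) ∣ 9 := hcard1 ▸ orderOf_dvd_natCard _
    have hne9 : orderOf (s : X ⧸ L1) ≠ 9 := by
      intro h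
      apply hnc
      exact isCyclic_of_orderOf_eq_card _ (by rw [h, hcard1])
    have h3 : orderOf (s : X ⧸ L1) ∣ 3 := by
      rcases hdiv _ hdvd with h | h | h
      · rw [h]; norm_num
      · rw [h]
      · exact absurd h hne9
    exact orderOf_dvd_iff_pow_eq_one.mp h3
  refine ⟨Subgroup.centralizer (L1 : Set X), ?_, ?_⟩
  · intro hM
    apply hL2ne
    rw [hL21, eq_bot_iff, Subgroup.commutator_le]
    intro u hu g _
    rw [Subgroup.mem_bot, commutatorElement_eq_one_iff_mul_comm]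
    have h3 : g ∈ Subgroup.centralizer (L1 : Set X) := by rw [hM]; trivial
    exact Subgroup.mem_centralizer_iff.mp h3 u hu
  · intro s hs
    obtain ⟨K, hK⟩ : ∃ K : Subgroup X, K = L1 ⊓ Subgroup.centralizer {s} := ⟨_, rfl⟩
    have hKL1 : K ≤ L1 := by rw [hK]; exact inf_le_left
    have hL2K : L2 ≤ K := by
      rw [hK]
      refine le_inf hL21le ?_
      intro z hz
      rw [Subgroup.mem_centralizer_iff]
      intro h hh
      rw [Set.mem_singleton_iff] at hh
      subst hh
      exact (hL2c z hz h).symm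
    have hs3K : s ^ 3 ∈ K := by
      rw [hK]
      refine ⟨hcube s, ?_⟩
      show s ^ 3 ∈ Subgroup.centralizer {s}
      rw [Subgroup.mem_centralizer_iff]
      intro h hh
      rw [Set.mem_singleton_iff] at hh
      subst hh
      exact (Commute.self_pow h 3).eq
    have hKne : K ≠ L1 := by
      intro h
      apply hs
      rw [Subgroup.mem_centralizer_iff]
      intro u hu
      have h3 : u ∈ K := by rw [h]; exact hu
      rw [hK] at h3
      have h7 := Subgroup.mem_centralizer_iff.mp h3.2 s rfl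
      exact h7.symm
    have hKd : Nat.card K ∣ 9 := h1 ▸ Subgroup.card_dvd_of_le hKL1
    have hK3 : 3 ≤ Nat.card K := h2 ▸ Subgroup.card_le_of_le hL2K
    have hK9 : Nat.card K ≠ 9 := by
      intro h
      exact hKne (Subgroup.eq_of_le_of_card_ge hKL1 (by rw [h, h1]))
    have hKc : Nat.card K = 3 := by
      rcases hdiv _ hKd with h | h | h
      · omega
      · exact h
      · exact absurd h hK9
    have hEq : L2 = K := Subgroup.eq_of_le_of_card_ge hL2K (by rw [hKc, h2])
    rw [hEq]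
    exact hs3K

end Cfsg.Agent.Helper47
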