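import Mathlib
import Cfsg.Prelude.Def_CaseTheorems
import Cfsg.Prelude.Def_OddOrderLocal
import Cfsg.Agent.Helper22.Rank2Cprod

/-!
# Blackburn, case 2: the centralizer of `E` is cyclic (piece J3d of the CALL for S3888)
-/

set_option autoImplicit false

namespace Cfsg.Agent.Helper47

/-- closure of pairwise commuting elements of order dividing `p` -/
theorem bk_closure_elemAb {G : Type*} [Group G] (p : ℕ) (s : Set G)
    (hcomm : ∀ x ∈ s, ∀ y ∈ s, x * y = y * x) (hp : ∀ x ∈ s, x ^ p = 1) :
    IsMulCommutative (Subgroup.closure s) ∧ ∀ a ∈ Subgroup.closure s, a ^ p = 1 := by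
  have hc : IsMulCommutative (Subgroup.closure s) := Subgroup.isMulCommutative_closure hcomm
  refine ⟨hc, ?_⟩
  intro a ha
  induction ha using Subgroup.closure_induction with
  | mem x hx => exact hp x hx
  | one => exact one_pow p
  | mul x y hx hy ihx ihy =>
    have hxy : Commute x y := by
      have h1 := hc.is_comm.comm (⟨x, hx⟩ : Subgroup.closure s) ⟨y, hy⟩
      exact congrArg Subtype.val h1
    rw [hxy.mul_pow, ihx, ihy, one_mul]
  | inv x hx ih => rw [inv_pow, ih, inv_one]

/-- a proper inclusion of subgroups of a `p`-group gains a factor `p` -/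
theorem bk_card_lt {G : Type*} [Group G] [Finite G] {p : ℕ} [Fact p.Prime] {n : ℕ}
    (hG : Nat.card G = p ^ n) {H K : Subgroup G} (h : H < K) :
    p * Nat.card H ≤ Nat.card K := by
  have hp : p.Prime := Fact.out
  have hHd : Nat.card H ∣ p ^ n := hG ▸ Subgroup.card_subgroup_dvd_card H
  have hKd : Nat.card K ∣ p ^ n := hG ▸ Subgroup.card_subgroup_dvd_card K
  obtain ⟨a, -, ha⟩ := (Nat.dvd_prime_pow hp).mp hHd
  obtain ⟨b, -, hb⟩ := (Nat.dvd_prime_pow hp).mp hKd
  have hlt : Nat.card H < Nat.card K := by
    by_contra hcon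
    exact h.ne (Subgroup.eq_of_le_of_card_ge h.le (not_lt.mp hcon))
  rw [ha, hb] at hlt ⊢
  have hab : a < b := (Nat.pow_lt_pow_iff_right hp.one_lt).mp hlt
  calc p * p ^ a = p ^ (a + 1) := by rw [pow_succ]; ring
    _ ≤ p ^ b := Nat.pow_le_pow_right hp.pos hab

variable {G : Type*} [Group G] [Finite G] {p : ℕ} [Fact p.Prime]

theorem bk_f2_cyc (hp : p ≠ 2) (n : ℕ) (hG : Nat.card G = p ^ n) (hrk : Cfsg.PRankLE p 2 G)
    (E : Subgroup G) [E.Normal] (hE : Nat.card E = p ^ 3) (hexp : ∀ e ∈ E, e ^ p = 1)
    (x y w : G) (hx : x ∈ E) (hy : y ∈ E) (hw : w ∈ E) (hw1 : w ≠ 1)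
    (hwc : w ∈ Subgroup.center G) (hxy : x * y * x⁻¹ * y⁻¹ = w) :
    IsCyclic (Subgroup.centralizer (E : Set G)) ∧
      ∀ v ∈ Subgroup.centralizer (E : Set G), v ^ p = 1 → v ∈ Subgroup.zpowers w := by
  have hpp : p.Prime := Fact.out
  have hwcomm : ∀ g : G, g * w = w * g := fun g => Subgroup.mem_center_iff.mp hwc g
  have hΩ : ∀ v ∈ Subgroup.centralizer (E : Set G), v ^ p = 1 → v ∈ Subgroup.zpowers w := by
    intro v hv hvp
    by_contra hvw
    have hvE : ∀ e ∈ E, e * v = v * e := fun e he => Subgroup.mem_centralizer_iff.mp hv e he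
    obtain ⟨hAc, hAp⟩ := bk_closure_elemAb p ({v, y, w} : Set G) (by
      intro a ha b hb
      simp only [Set.mem_insert_iff, Set.mem_singleton_iff] at ha hb
      rcases ha with rfl | rfl | rfl <;> rcases hb with rfl | rfl | rfl
      · rfl
      · exact (hvE _ hy).symm
      · exact hwcomm _
      · exact hvE _ hy
      · rfl
      · exact hwcomm _
      · exact (hwcomm _).symm
      · exact (hwcomm _).symm
      · rfl) (by
      intro a ha
      simp only [Set.mem_insert_iff, Set.mem_singleton_iff] at ha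
      rcases ha with rfl | rfl | rfl
      · exact hvp
      · exact hexp _ hy
      · exact hexp _ hw)
    have hcardA := hrk _ hAc hAp
    have h1 : (⊥ : Subgroup G) < Subgroup.zpowers w := by
      rw [bot_lt_iff_ne_bot]
      intro h
      exact hw1 (Subgroup.zpowers_eq_bot.mp h)
    have h2 : Subgroup.zpowers w < Subgroup.closure ({v, w} : Set G) := by
      refine lt_of_le_of_ne ?_ ?_
      · rw [Subgroup.zpowers_le]
        exact Subgroup.subset_closure (by simp)
      · intro h
        apply hvw
        rw [h]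
        exact Subgroup.subset_closure (by simp)
    have h3 : Subgroup.closure ({v, w} : Set G)
        ≤ Subgroup.closure ({v, y, w} : Set G) ⊓ Subgroup.centralizer {x} := by
      rw [Subgroup.closure_le]
      intro a ha
      simp only [Set.mem_insert_iff, Set.mem_singleton_iff] at ha
      refine ⟨Subgroup.subset_closure (by rcases ha with rfl | rfl <;> simp), ?_⟩
      show a ∈ Subgroup.centralizer {x}
      rw [Subgroup.mem_centralizer_iff]
      intro h hh
      rw [Set.mem_singleton_iff] at hh
      subst hh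
      rcases ha with rfl | rfl
      · exact hvE _ hx
      · exact hwcomm _
    have h4 : Subgroup.closure ({v, y, w} : Set G) ⊓ Subgroup.centralizer {x}
        < Subgroup.closure ({v, y, w} : Set G) := by
      refine lt_of_le_of_ne inf_le_left ?_
      intro h
      have hy' : y ∈ Subgroup.closure ({v, y, w} : Set G) ⊓ Subgroup.centralizer {x} := by
        rw [h]
        exact Subgroup.subset_closure (by simp)
      have h5 := Subgroup.mem_centralizer_iff.mp hy'.2 x rfl
      apply hw1
      rw [← hxy, h5]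
      group
    have c1 := bk_card_lt hG h1
    have c2 := bk_card_lt hG h2
    have c3 := bk_card_lt hG h4
    have c4 := Subgroup.card_le_of_le h3
    rw [Subgroup.card_bot, mul_one] at c1
    have c5 : p * (p * p) ≤ p ^ 2 :=
      calc p * (p * p) ≤ p * (p * Nat.card (Subgroup.zpowers w)) :=
            Nat.mul_le_mul_left _ (Nat.mul_le_mul_left _ c1)
        _ ≤ p * Nat.card (Subgroup.closure ({v, w} : Set G)) := Nat.mul_le_mul_left _ c2
        _ ≤ p * Nat.card (Subgroup.closure ({v, y, w} : Set G) ⊓ Subgroup.centralizer {x} :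
              Subgroup G) := Nat.mul_le_mul_left _ c4
        _ ≤ Nat.card (Subgroup.closure ({v, y, w} : Set G)) := c3
        _ ≤ p ^ 2 := hcardA
    have hp2 := hpp.two_le
    nlinarith [hpp.pos]
  have hP : IsPGroup p G := IsPGroup.of_card hG
  have hPC : IsPGroup p (Subgroup.centralizer (E : Set G)) := hP.to_subgroup _
  refine ⟨?_, hΩ⟩
  apply Cfsg.Agent.Helper22.r2c_isCyclic_of_exp_le hp hPC
  intro A hA
  have hle : A.map (Subgroup.subtype _) ≤ Subgroup.zpowers w := by
    rintro _ ⟨a, ha, rfl⟩
    refine hΩ _ a.2 ?_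
    have h1 := congrArg Subtype.val (hA a ha)
    exact h1
  calc Nat.card A = Nat.card (A.map (Subgroup.subtype _)) :=
        (Subgroup.card_map_of_injective (Subgroup.subtype_injective _)).symm
    _ ≤ Nat.card (Subgroup.zpowers w) := Subgroup.card_le_of_le hle
    _ = p := by rw [Nat.card_zpowers, orderOf_eq_prime (hexp w hw) hw1]

end Cfsg.Agent.Helper47
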