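import Mathlib
import Cfsg.Prelude.Def_CaseTheorems
import Cfsg.Prelude.Def_OddOrderLocal
import Cfsg.Agent.Helper22.Rank2Cprod
import Cfsg.Agent.Helper47.BkJ3d

/-!
# Blackburn, case 2: the data `x, y, w` (piece J1 of the CALL for S3888)
-/

set_option autoImplicit false

namespace Cfsg.Agent.Helper47

theorem bk_zpow_nat {G : Type*} [Group G] {g : G} {p : ℕ} (hp : 0 < p) (hg : g ^ p = 1) (a : ℤ) :
    ∃ i : ℕ, g ^ a = g ^ i := by
  refine ⟨(a % (p : ℤ)).toNat, ?_⟩
  have h1 := Int.emod_add_mul_ediv a (p : ℤ)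
  have h2 : (0 : ℤ) ≤ a % (p : ℤ) := Int.emod_nonneg a (by exact_mod_cast hp.ne')
  have h3 : g ^ a = g ^ (a % (p : ℤ)) := by
    conv_lhs => rw [← h1]
    rw [zpow_add, zpow_mul, zpow_natCast, hg, one_zpow, mul_one]
  rw [h3, ← zpow_natCast, Int.toNat_of_nonneg h2]

variable {G : Type*} [Group G] [Finite G] {p : ℕ} [Fact p.Prime]

theorem bk_f2_data (hp : p ≠ 2) (n : ℕ) (hG : Nat.card G = p ^ n) (hrk : Cfsg.PRankLE p 2 G)
    (E : Subgroup G) [E.Normal] (hE : Nat.card E = p ^ 3) (hexp : ∀ e ∈ E, e ^ p = 1) :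
    ∃ x y w : G, x ∈ E ∧ y ∈ E ∧ w ∈ E ∧ w ≠ 1 ∧ w ∈ Subgroup.center G ∧
      x * y * x⁻¹ * y⁻¹ = w ∧ (∀ g : G, g * y * g⁻¹ * y⁻¹ ∈ Subgroup.zpowers w) ∧
      (∀ g : G, ∃ i j : ℕ, g * x * g⁻¹ * x⁻¹ = y ^ i * w ^ j) := by
  have hpp : p.Prime := Fact.out
  have hP : IsPGroup p G := IsPGroup.of_card hG
  obtain ⟨E₀, Z, hE₀n, hZn, hZE₀, hE₀E, hE₀card, hZcard, hZc, hE₀Z, hEE₀⟩ :=
    Cfsg.Agent.Helper22.r2c_chain hP E hE
  have hlt1 : E₀ < E := by
    refine lt_of_le_of_ne hE₀E ?_
    intro h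
    rw [h, hE] at hE₀card
    have := Nat.pow_right_injective hpp.two_le hE₀card
    omega
  have hlt2 : Z < E₀ := by
    refine lt_of_le_of_ne hZE₀ ?_
    intro h
    rw [h, hE₀card] at hZcard
    have h1 : p ^ 2 = p ^ 1 := by rw [hZcard, pow_one]
    have := Nat.pow_right_injective hpp.two_le h1
    omega
  obtain ⟨x, hxE, hxE₀⟩ := SetLike.exists_of_lt hlt1
  obtain ⟨y, hyE₀, hyZ⟩ := SetLike.exists_of_lt hlt2
  have hyE : y ∈ E := hE₀E hyE₀
  have hwZ : x * y * x⁻¹ * y⁻¹ ∈ Z := hE₀Z y hyE₀ x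
  have hZE : Z ≤ E := hZE₀.trans hE₀E
  have hw1 : x * y * x⁻¹ * y⁻¹ ≠ 1 := by
    intro hw
    have hxy : x * y = y * x := by
      have h1 : x * y = (x * y * x⁻¹ * y⁻¹) * (y * x) := by group
      rw [h1, hw, one_mul]
    obtain ⟨hAc, hAp⟩ := bk_closure_elemAb p (insert x (insert y (Z : Set G))) (by
      intro a ha b hb
      simp only [Set.mem_insert_iff, SetLike.mem_coe] at ha hb
      rcases ha with rfl | rfl | ha
      · rcases hb with rfl | rfl | hb
        · rfl
        · exact hxy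
        · exact hZc b hb a
      · rcases hb with rfl | rfl | hb
        · exact hxy.symm
        · rfl
        · exact hZc b hb a
      · exact (hZc a ha b).symm) (by
      intro a ha
      simp only [Set.mem_insert_iff, SetLike.mem_coe] at ha
      rcases ha with rfl | rfl | ha
      · exact hexp _ hxE
      · exact hexp _ hyE
      · exact hexp _ (hZE ha))
    have hcardA := hrk _ hAc hAp
    have h2 : Z < Subgroup.closure (insert y (Z : Set G)) := by
      refine lt_of_le_of_ne ?_ ?_
      · intro z hz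
        exact Subgroup.subset_closure (Set.mem_insert_of_mem _ hz)
      · intro h
        apply hyZ
        rw [h]
        exact Subgroup.subset_closure (Set.mem_insert _ _)
    have h3 : Subgroup.closure (insert y (Z : Set G))
        < Subgroup.closure (insert x (insert y (Z : Set G))) := by
      refine lt_of_le_of_ne (Subgroup.closure_mono (Set.subset_insert _ _)) ?_
      intro h
      apply hxE₀
      have h4 : Subgroup.closure (insert y (Z : Set G)) ≤ E₀ := by
        rw [Subgroup.closure_le]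
        intro a ha
        rcases ha with rfl | ha
        · exact hyE₀
        · exact hZE₀ ha
      apply h4
      rw [h]
      exact Subgroup.subset_closure (Set.mem_insert _ _)
    have c2 := bk_card_lt hG h2
    have c3 := bk_card_lt hG h3
    rw [hZcard] at c2
    have c5 : p * (p * p) ≤ p ^ 2 :=
      calc p * (p * p) ≤ p * Nat.card (Subgroup.closure (insert y (Z : Set G))) :=
            Nat.mul_le_mul_left _ c2
        _ ≤ Nat.card (Subgroup.closure (insert x (insert y (Z : Set G)))) := c3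
        _ ≤ p ^ 2 := hcardA
    have hp2 := hpp.two_le
    nlinarith [hpp.pos]
  obtain ⟨w, hwdef⟩ : ∃ w, w = x * y * x⁻¹ * y⁻¹ := ⟨_, rfl⟩
  rw [← hwdef] at hwZ hw1
  have hwE : w ∈ E := hZE hwZ
  have hwp : w ^ p = 1 := hexp w hwE
  have hZw : Subgroup.zpowers w = Z := by
    apply Subgroup.eq_of_le_of_card_ge
    · rw [Subgroup.zpowers_le]
      exact hwZ
    · rw [Nat.card_zpowers, orderOf_eq_prime hwp hw1, hZcard]
  have hwc : ∀ g : G, g * w = w * g := hZc w hwZ
  -- E₀ is generated by y and w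
  have hE₀gen : Subgroup.closure ({y, w} : Set G) = E₀ := by
    have hle : Subgroup.closure ({y, w} : Set G) ≤ E₀ := by
      rw [Subgroup.closure_le]
      intro a ha
      simp only [Set.mem_insert_iff, Set.mem_singleton_iff] at ha
      rcases ha with rfl | rfl
      · exact hyE₀
      · exact hZE₀ hwZ
    apply Subgroup.eq_of_le_of_card_ge hle
    have h2 : Z < Subgroup.closure ({y, w} : Set G) := by
      refine lt_of_le_of_ne ?_ ?_
      · rw [← hZw, Subgroup.zpowers_le]
        exact Subgroup.subset_closure (by simp)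
      · intro h
        apply hyZ
        rw [h]
        exact Subgroup.subset_closure (by simp)
    have c2 := bk_card_lt hG h2
    rw [hZcard] at c2
    rw [hE₀card, pow_two]
    exact c2
  have hform : ∀ g ∈ E₀, ∃ i j : ℕ, g = y ^ i * w ^ j := by
    intro g hg
    rw [← hE₀gen] at hg
    have hz : ∃ a b : ℤ, g = y ^ a * w ^ b := by
      induction hg using Subgroup.closure_induction with
      | mem u hu =>
        simp only [Set.mem_insert_iff, Set.mem_singleton_iff] at hu
        rcases hu with rfl | rfl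
        · exact ⟨1, 0, by simp⟩
        · exact ⟨0, 1, by simp⟩
      | one => exact ⟨0, 0, by simp⟩
      | mul u v _ _ ihu ihv =>
        obtain ⟨a, b, rfl⟩ := ihu
        obtain ⟨c, d, rfl⟩ := ihv
        refine ⟨a + c, b + d, ?_⟩
        have hcomm : Commute (w ^ b) (y ^ c) :=
          ((show Commute w y from (hwc y).symm).zpow_left b).zpow_right c
        rw [zpow_add, zpow_add, mul_assoc, ← mul_assoc (w ^ b), hcomm.eq, mul_assoc, mul_assoc]
      | inv u _ ihu =>
        obtain ⟨a, b, rfl⟩ := ihu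
        refine ⟨-a, -b, ?_⟩
        have hcomm : Commute (w ^ b) (y ^ a) :=
          ((show Commute w y from (hwc y).symm).zpow_left b).zpow_right a
        rw [mul_inv_rev, zpow_neg, zpow_neg, ← hcomm.inv_inv.eq]
    obtain ⟨a, b, rfl⟩ := hz
    obtain ⟨i, hi⟩ := bk_zpow_nat hpp.pos (hexp y hyE) a
    obtain ⟨j, hj⟩ := bk_zpow_nat hpp.pos hwp b
    exact ⟨i, j, by rw [hi, hj]⟩
  refine ⟨x, y, w, hxE, hyE, hwE, hw1, Subgroup.mem_center_iff.mpr hwc, hwdef.symm, ?_, ?_⟩
  · intro g
    rw [hZw]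
    exact hE₀Z y hyE₀ g
  · intro g
    exact hform _ (hEE₀ x hxE g)

end Cfsg.Agent.Helper47
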