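import Mathlib

set_option autoImplicit false

/-!
PIECE B2a of CALL S4607 (helper77): lifting a rank one idempotent along a surjection onto a
matrix algebra with nilpotent kernel, together with a decomposition of `1`.
-/

universe u v

namespace Cfsg.Agent.Helper47

theorem k2_exists_idem {k : Type v} [Field k] {𝔅 : Type u} [Ring 𝔅] [Algebra k 𝔅]
    (n : ℕ) (hn : 0 < n) (g : 𝔅 →ₐ[k] Matrix (Fin n) (Fin n) k) (hg : Function.Surjective g)
    (N : ℕ) (hN : ∀ l : List 𝔅, l.length = N → (∀ x ∈ l, g x = 0) → l.prod = 0) :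
    ∃ (ε : 𝔅) (a b : Fin n → 𝔅), ε * ε = ε ∧
      g ε = Matrix.single (⟨0, hn⟩ : Fin n) (⟨0, hn⟩ : Fin n) (1 : k) ∧
      ∑ i, a i * ε * b i = 1 := by
  classical
  have hnil0 : ∀ x : 𝔅, g x = 0 → IsNilpotent x := by
    intro x hx
    refine ⟨N, ?_⟩
    have h := hN (List.replicate N x) (List.length_replicate ..) (by
      intro y hy
      rw [List.eq_of_mem_replicate hy]
      exact hx)
    rwa [List.prod_replicate] at h
  have hnil : ∀ x ∈ RingHom.ker (g : 𝔅 →+* Matrix (Fin n) (Fin n) k), IsNilpotent x := by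
    intro x hx
    exact hnil0 x hx
  obtain ⟨o, ho⟩ : ∃ o : Fin n, o = ⟨0, hn⟩ := ⟨_, rfl⟩
  rw [← ho]
  obtain ⟨ε, hε, hgε⟩ := exists_isIdempotentElem_eq_of_ker_isNilpotent
    (g : 𝔅 →+* Matrix (Fin n) (Fin n) k) hnil
    (Matrix.single o o (1 : k)) (by obtain ⟨y, hy⟩ := hg (Matrix.single o o 1); exact ⟨y, hy⟩)
    (by show _ * _ = _; rw [Matrix.single_mul_single_same, mul_one])
  have hgε' : g ε = Matrix.single o o (1 : k) := hgε
  choose a' ha' using fun i : Fin n => hg (Matrix.single i o (1 : k))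
  choose b' hb' using fun i : Fin n => hg (Matrix.single o i (1 : k))
  obtain ⟨s, hsdef⟩ : ∃ s : 𝔅, s = ∑ i, a' i * ε * b' i := ⟨_, rfl⟩
  have hgs : g s = 1 := by
    rw [hsdef, map_sum]
    have h1 : ∀ i : Fin n, g (a' i * ε * b' i) = Matrix.single i i (1 : k) := by
      intro i
      rw [map_mul, map_mul, ha', hb', hgε', Matrix.single_mul_single_same,
        Matrix.single_mul_single_same, mul_one, mul_one]
    simp only [h1]
    exact Matrix.sum_single_one
  have hs : IsUnit s := by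
    have h1 : IsNilpotent (1 - s) := hnil0 _ (by rw [map_sub, map_one, hgs, sub_self])
    have h2 := h1.isUnit_one_sub
    rwa [sub_sub_cancel] at h2
  obtain ⟨s', hs'⟩ := hs.exists_left_inv
  refine ⟨ε, fun i => s' * a' i, b', hε, hgε', ?_⟩
  calc ∑ i, s' * a' i * ε * b' i = s' * s := by
        rw [hsdef, Finset.mul_sum]
        refine Finset.sum_congr rfl (fun i _ => ?_)
        simp only [mul_assoc]
    _ = 1 := hs'

end Cfsg.Agent.Helper47
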