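import Cfsg.Agent.Helper71.McLGDefs

/-!
# S5075 piece P: every centre of a transvection lies in a block
-/

set_option autoImplicit false

namespace Cfsg.Agent.Helper47.McL

open Module Cfsg.Agent.Helper71.McL

variable {p : ℕ} [Fact p.Prime] {V : Type*} [AddCommGroup V] [Module (ZMod p) V]

theorem exists_block [Finite V] (H : Subgroup (V ≃ₗ[ZMod p] V))
    (hunip : ∀ U : Submodule (ZMod p) V, InvG H U → ∀ g ∈ H, (∀ x : V, g x - x ∈ U) →
      (∀ x ∈ U, g x = x) → g = 1)
    (h6 : ∀ W : Submodule (ZMod p) V, IsBlock H W → ∀ (φ : Dual (ZMod p) V) (v : V),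
      TV H φ v → φ ≠ 0 → v ≠ 0 →
      (v ∈ W ∧ TV (HW H W) φ v) ∨ (v ∈ FixG (HW H W) ∧ ∀ x ∈ W, φ x = 0))
    (hdisj : ∀ W : Submodule (ZMod p) V, IsBlock H W → Disjoint W (FixG (HW H W)))
    (φ : Dual (ZMod p) V) (v : V) (h : TV H φ v) (hφ : φ ≠ 0) (hv : v ≠ 0) :
    ∃ W : Submodule (ZMod p) V, IsBlock H W ∧ v ∈ W := by
  classical
  obtain ⟨hφv, g, hgH, hg⟩ := h
  set M : Submodule (ZMod p) V := Submodule.span (ZMod p) {y | ∃ k ∈ H, y = k v} with hM
  have hMinv : InvG H M := by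
    intro k hk x hx
    refine Submodule.span_induction (p := fun x _ => k x ∈ M) ?_ ?_ ?_ ?_ hx
    · rintro y ⟨k', hk', rfl⟩
      exact Submodule.subset_span ⟨k * k', H.mul_mem hk hk', rfl⟩
    · simp
    · intro a b _ _ ha hb
      rw [map_add]
      exact M.add_mem ha hb
    · intro c a _ ha
      rw [map_smul]
      exact M.smul_mem c ha
  have hvM : v ∈ M := Submodule.subset_span ⟨1, H.one_mem, rfl⟩
  have hvfix : v ∉ FixG H := by
    intro hvF
    have h1 : g = 1 := by
      apply hunip (Submodule.span (ZMod p) {v}) ?_ g hgH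
      · intro x
        rw [hg x, add_sub_cancel_left]
        exact Submodule.smul_mem _ _ (Submodule.subset_span rfl)
      · intro x hx
        obtain ⟨c, rfl⟩ := Submodule.mem_span_singleton.mp hx
        rw [map_smul, hvF g hgH]
      · intro k hk x hx
        obtain ⟨c, rfl⟩ := Submodule.mem_span_singleton.mp hx
        rw [map_smul, hvF k hk]
        exact hx
    apply hφ
    ext x
    have h2 := hg x
    rw [h1] at h2
    have h3 : φ x • v = 0 := by simpa using h2
    rcases smul_eq_zero.mp h3 with h4 | h4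
    · simpa using h4
    · exact absurd h4 hv
  have hMfix : ¬ M ≤ FixG H := fun hle => hvfix (hle hvM)
  obtain ⟨W, hWmin⟩ : ∃ W, Minimal
      (fun U : Submodule (ZMod p) V => U ≤ M ∧ InvG H U ∧ ¬ U ≤ FixG H) W := by
    have hfin : Finite (Submodule (ZMod p) V) := inferInstance
    exact Set.Finite.exists_minimal
      (Set.toFinite {U : Submodule (ZMod p) V | U ≤ M ∧ InvG H U ∧ ¬ U ≤ FixG H})
      ⟨M, le_refl M, hMinv, hMfix⟩
  obtain ⟨⟨hWM, hWinv, hWfix⟩, hWmin'⟩ := hWmin
  have hWblock : IsBlock H W := by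
    refine ⟨hWinv, hWfix, ?_⟩
    intro U hUW hUinv
    by_cases hUf : U ≤ FixG H
    · exact Or.inr hUf
    · left
      exact le_antisymm hUW (hWmin' ⟨hUW.trans hWM, hUinv, hUf⟩ hUW)
  refine ⟨W, hWblock, ?_⟩
  by_contra hvW
  have key : ∀ k ∈ H, k v ∈ FixG (HW H W) := by
    intro k hk
    have hTV : TV H (φ ∘ₗ ((k⁻¹ : V ≃ₗ[ZMod p] V) : V →ₗ[ZMod p] V)) (k v) := by
      refine ⟨?_, k * g * k⁻¹, H.mul_mem (H.mul_mem hk hgH) (H.inv_mem hk), ?_⟩
      · simp [hφv]
      · intro x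
        simp only [LinearMap.comp_apply, LinearEquiv.coe_coe, LinearEquiv.mul_apply]
        rw [hg, map_add, map_smul]
        simp
    have hne1 : (φ ∘ₗ ((k⁻¹ : V ≃ₗ[ZMod p] V) : V →ₗ[ZMod p] V)) ≠ 0 := by
      intro h0
      apply hφ
      ext x
      have := LinearMap.congr_fun h0 (k x)
      simpa using this
    have hne2 : k v ≠ 0 := by
      intro h0
      apply hv
      simpa using h0
    rcases h6 W hWblock _ _ hTV hne1 hne2 with ⟨h1, _⟩ | ⟨h1, _⟩
    · exfalso
      apply hvW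
      have := hWinv k⁻¹ (H.inv_mem hk) _ h1
      simpa using this
    · exact h1
  have hMle : M ≤ FixG (HW H W) := by
    rw [hM, Submodule.span_le]
    rintro y ⟨k, hk, rfl⟩
    exact key k hk
  have hWbot : W ≤ ⊥ := (hdisj W hWblock) (le_refl W) (hWM.trans hMle)
  exact hWfix (hWbot.trans bot_le)

end Cfsg.Agent.Helper47.McL
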