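import Cfsg.Agent.Helper71.McLGDefs

/-!
# S5075 piece R: a family of complements gives an internal direct sum
-/

set_option autoImplicit false

namespace Cfsg.Agent.Helper47.McL

open Module Cfsg.Agent.Helper71.McL

theorem internal_of_compl {F V : Type*} [Field F] [AddCommGroup V] [Module F V] {m : ℕ}
    (W : Fin (m + 1) → Submodule F V) (A : Fin m → Submodule F V)
    (h0 : W 0 = ⨅ j, A j) (hc : ∀ j : Fin m, IsCompl (W j.succ) (A j))
    (hle : ∀ j k : Fin m, j ≠ k → W k.succ ≤ A j) : DirectSum.IsInternal W := by
  classical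
  -- projections
  set π : Fin m → (V →ₗ[F] V) := fun j => (W j.succ).projection (A j) (hc j) with hπ
  have hπ_mem : ∀ (j : Fin m) (x : V), π j x ∈ W j.succ :=
    fun j x => Submodule.projection_apply_mem (hc j) x
  have hπ_left : ∀ (j : Fin m) (x : V), x ∈ W j.succ → π j x = x :=
    fun j x hx => Submodule.projection_apply_of_mem_left (hc j) hx
  have hπ_right : ∀ (j : Fin m) (x : V), x ∈ A j → π j x = 0 :=
    fun j x hx => (Submodule.projection_apply_eq_zero_iff (hc j)).mpr hx
  have hπ_zero : ∀ (j : Fin m) (x : V), π j x = 0 → x ∈ A j :=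
    fun j x hx => (Submodule.projection_apply_eq_zero_iff (hc j)).mp hx
  set P : V →ₗ[F] V := ∑ j, π j with hP
  have hP_apply : ∀ x : V, P x = ∑ j, π j x := by intro x; simp [hP, LinearMap.sum_apply]
  have hP_succ : ∀ (k : Fin m) (x : V), x ∈ W k.succ → P x = x := by
    intro k x hx
    rw [hP_apply, Finset.sum_eq_single k]
    · exact hπ_left k x hx
    · intro j _ hjk; exact hπ_right j x (hle j k hjk hx)
    · intro h; exact absurd (Finset.mem_univ k) h
  have hP_zero : ∀ x : V, x ∈ W 0 → P x = 0 := by
    intro x hx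
    rw [hP_apply]
    apply Finset.sum_eq_zero
    intro j _
    apply hπ_right
    rw [h0] at hx
    exact (Submodule.mem_iInf _).mp hx j
  rw [DirectSum.isInternal_submodule_iff_iSupIndep_and_iSup_eq_top]
  refine ⟨?_, ?_⟩
  · intro i
    rw [Submodule.disjoint_def]
    intro x hx hx'
    induction i using Fin.cases with
    | zero =>
      have h1 : (⨆ j, ⨆ (_ : j ≠ 0), W j) ≤ LinearMap.eqLocus P LinearMap.id := by
        refine iSup_le fun j => iSup_le fun hj => ?_
        obtain ⟨k, rfl⟩ := Fin.exists_succ_eq_of_ne_zero hj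
        intro y hy
        exact hP_succ k y hy
      have h2 : P x = x := h1 hx'
      rw [← h2]; exact hP_zero x hx
    | succ k =>
      have h1 : (⨆ j, ⨆ (_ : j ≠ k.succ), W j) ≤ A k := by
        refine iSup_le fun j => iSup_le fun hj => ?_
        induction j using Fin.cases with
        | zero => rw [h0]; exact iInf_le _ k
        | succ l => exact hle k l (fun h => hj (by rw [h]))
      have h2 : x ∈ W k.succ ⊓ A k := ⟨hx, h1 hx'⟩
      rw [(hc k).inf_eq_bot] at h2
      exact (Submodule.mem_bot F).mp h2
  · rw [eq_top_iff]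
    intro x _
    have h1 : x - P x ∈ W 0 := by
      rw [h0, Submodule.mem_iInf]
      intro k
      apply hπ_zero
      rw [map_sub, hP_apply, map_sum, Finset.sum_eq_single k]
      · rw [hπ_left k _ (hπ_mem k x), sub_self]
      · intro j _ hjk
        exact hπ_right k _ (hle k j (Ne.symm hjk) (hπ_mem j x))
      · intro h; exact absurd (Finset.mem_univ k) h
    have h2 : P x ∈ ⨆ i, W i := by
      rw [hP_apply]
      apply Submodule.sum_mem
      intro j _
      exact Submodule.mem_iSup_of_mem j.succ (hπ_mem j x)
    have h3 : x = (x - P x) + P x := by abel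
    rw [h3]
    exact Submodule.add_mem _ (Submodule.mem_iSup_of_mem 0 h1) h2

end Cfsg.Agent.Helper47.McL
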