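import Cfsg.Agent.Helper55.N9Defs

/-!
# CALL S4409, piece C2b (helper47): `zc X` lies in every subgroup of index 2.
-/

set_option autoImplicit false

namespace Cfsg.Agent.Helper47.N9

open Subgroup Cfsg.Agent.Helper55.N9

variable {G : Type*} [Group G] [Finite G]

omit [Finite G] in
theorem c2b_norm_of_conj (K Y : Subgroup G) (h : ∀ k ∈ K, ∀ y ∈ Y, k * y * k⁻¹ ∈ Y) :
    K ≤ normalizer (Y : Set G) := by
  intro k hk
  rw [Subgroup.mem_normalizer_iff]
  intro y
  constructor
  · exact h k hk y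
  · intro hy
    have h1 := h k⁻¹ (K.inv_mem hk) _ hy
    have h2 : k⁻¹ * (k * y * k⁻¹) * k⁻¹⁻¹ = y := by group
    rw [h2] at h1
    exact h1

omit [Finite G] in
theorem c2b_conj_mem {K Y : Subgroup G} (h : K ≤ normalizer (Y : Set G)) {k y : G} (hk : k ∈ K)
    (hy : y ∈ Y) : k * y * k⁻¹ ∈ Y :=
  (Subgroup.mem_normalizer_iff.mp (h hk) y).mp hy

omit [Finite G] in
theorem c2b_idx2_mul (M X : Subgroup G) (h : M.relIndex X = 2) {a b : G} (ha : a ∈ X)
    (hb : b ∈ X) : a * b ∈ M ↔ (a ∈ M ↔ b ∈ M) := by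
  have h1 := Subgroup.mul_mem_iff_of_index_two (H := M.subgroupOf X) h (a := ⟨a, ha⟩)
    (b := ⟨b, hb⟩)
  simpa [Subgroup.mem_subgroupOf] using h1

omit [Finite G] in
theorem c2b_zc_comm (X : Subgroup G) {g h : G} (hg : g ∈ zc X) (hh : h ∈ X) : h * g = g * h :=
  Subgroup.mem_centralizer_iff.mp hg.2 h hh

omit [Finite G] in
theorem c2b_zc_inv (X K : Subgroup G) (hinv : K ≤ normalizer (X : Set G)) :
    K ≤ normalizer ((zc X : Subgroup G) : Set G) := by
  apply c2b_norm_of_conj
  intro k hk g hg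
  refine ⟨c2b_conj_mem hinv hk hg.1, Subgroup.mem_centralizer_iff.mpr ?_⟩
  intro h hh
  have h1 : k⁻¹ * h * k⁻¹⁻¹ ∈ X := c2b_conj_mem hinv (K.inv_mem hk) hh
  have h2 := c2b_zc_comm X hg h1
  calc h * (k * g * k⁻¹) = k * ((k⁻¹ * h * k⁻¹⁻¹) * g) * k⁻¹ := by group
    _ = k * (g * (k⁻¹ * h * k⁻¹⁻¹)) * k⁻¹ := by rw [h2]
    _ = k * g * k⁻¹ * h := by group

omit [Finite G] in
theorem c2b_sqs_inv (X K : Subgroup G) (hinv : K ≤ normalizer (X : Set G)) :
    K ≤ normalizer ((sqs X : Subgroup G) : Set G) := by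
  apply c2b_norm_of_conj
  intro k hk g hg
  have hle : sqs X ≤ (sqs X).comap (MulAut.conj k).toMonoidHom := by
    unfold sqs
    rw [Subgroup.closure_le]
    rintro g ⟨x, hx, rfl⟩
    show (MulAut.conj k) (x ^ 2) ∈ closure {g : G | ∃ x ∈ X, g = x ^ 2}
    apply Subgroup.subset_closure
    refine ⟨k * x * k⁻¹, c2b_conj_mem hinv hk hx, ?_⟩
    rw [map_pow, MulAut.conj_apply]
  have h1 := hle hg
  rw [Subgroup.mem_comap] at h1
  exact h1

omit [Finite G] in
theorem c2b_not_q8 (X : Subgroup G) (hQ : IsQ8 (zc X)) : False := by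
  obtain ⟨e⟩ := hQ
  have hcomm : ∀ p q : ↥(zc X), p * q = q * p := by
    intro p q
    apply Subtype.ext
    show (p : G) * (q : G) = (q : G) * (p : G)
    exact c2b_zc_comm X q.2 p.2.1
  have h1 := hcomm (e.symm (QuaternionGroup.a 1)) (e.symm (QuaternionGroup.xa 0))
  have h2 := congrArg e h1
  rw [map_mul, map_mul, e.apply_symm_apply, e.apply_symm_apply] at h2
  revert h2
  decide

-- C2b
theorem n9_case2_frat (T : Tools G) (X K : Subgroup G) (c : Core X K) (hXK : ⁅X, K⁆ = X)
    (hni : NoIdx2 K X)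
    (hna : ¬ ∀ a ∈ X, ∀ b ∈ X, a * b = b * a)
    (hs : ∀ Y : Subgroup G, Y ≤ X → Y ≠ X → K ≤ normalizer (Y : Set G) →
      ¬ Y ≤ centralizer (K : Set G) → MinCfg K Y ∧ (IsV4 Y ∨ IsQ8 Y))
    (hmf : ∀ Y : Subgroup G, Y ≤ X → MinCfg K Y → MinFacts K Y)
    (hsq : ∀ x ∈ X, x ^ 2 ∈ zc X) :
    ∀ M : Subgroup G, M ≤ X → M.relIndex X = 2 → zc X ≤ M := by
  intro M hM hidx
  have hZX : zc X ≤ X := inf_le_left
  have hZne : zc X ≠ X := by
    intro h
    apply hna
    intro a ha b hb
    have hb' : b ∈ zc X := by rw [h]; exact hb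
    exact c2b_zc_comm X hb' ha
  have hKZ : K ≤ normalizer ((zc X : Subgroup G) : Set G) := c2b_zc_inv X K c.inv
  by_cases hcase : zc X ≤ centralizer (K : Set G)
  · intro v hv
    exact T.norm_trick X K c.pX c.odd c.inv hni v (hZX hv) (hcase hv) M hM hidx
  · obtain ⟨hmin, hV⟩ := hs (zc X) hZX hZne hKZ hcase
    rcases hV with hV | hQ
    swap
    · exact (c2b_not_q8 X hQ).elim
    by_contra hZM
    obtain ⟨a, haZ, haM⟩ := SetLike.not_le_iff_exists.mp hZM
    -- `W = zc X ⊓ M` has index 2 in `zc X`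
    have hWidx : (zc X ⊓ M).relIndex (zc X) = 2 := by
      rw [Subgroup.relIndex_eq_two_iff_exists_notMem_and]
      refine ⟨a, haZ, fun h => haM h.2, ?_⟩
      intro b hb
      by_cases hbM : b ∈ M
      · exact Or.inr ⟨hb, hbM⟩
      · left
        refine ⟨(zc X).mul_mem hb haZ, ?_⟩
        exact (c2b_idx2_mul M X hidx (hZX hb) (hZX haZ)).2
          ⟨fun h => (hbM h).elim, fun h => (haM h).elim⟩
    have hWcard : Nat.card (zc X ⊓ M : Subgroup G) = 2 := by
      have h1 := Subgroup.relIndex_mul_relIndex ⊥ (zc X ⊓ M) (zc X) bot_le inf_le_left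
      rw [Subgroup.relIndex_bot_left, Subgroup.relIndex_bot_left, hWidx, hV.1] at h1
      omega
    -- all squares lie in `W`
    have hsqW : sqs X ≤ zc X ⊓ M := by
      unfold sqs
      rw [Subgroup.closure_le]
      rintro g ⟨x, hx, rfl⟩
      refine ⟨hsq x hx, ?_⟩
      rw [pow_two]
      exact (c2b_idx2_mul M X hidx hx hx).2 Iff.rfl
    have hsqK : K ≤ normalizer ((sqs X : Subgroup G) : Set G) := c2b_sqs_inv X K c.inv
    have hdvd : Nat.card (sqs X) ∣ 2 := by
      rw [← hWcard]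
      exact Subgroup.card_dvd_of_le hsqW
    rcases (Nat.dvd_prime Nat.prime_two).mp hdvd with h1 | h2
    · -- exponent 2, so abelian
      apply hna
      have hbot : sqs X = ⊥ := (Subgroup.card_eq_one).mp h1
      have hsq1 : ∀ x ∈ X, x * x = 1 := by
        intro x hx
        have h3 : x ^ 2 ∈ sqs X := Subgroup.subset_closure ⟨x, hx, rfl⟩
        rw [hbot, Subgroup.mem_bot] at h3
        rw [← pow_two]
        exact h3
      intro x hx y hy
      have hx1 := hsq1 x hx
      have hy1 := hsq1 y hy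
      have hxy := hsq1 (x * y) (X.mul_mem hx hy)
      calc x * y = y * (y * x * y * x) * x := by
            rw [show y * (y * x * y * x) * x = (y * y) * (x * y) * (x * x) by group, hx1, hy1]
            group
        _ = y * x := by
            have h4 : y * x * y * x = 1 := by
              have h5 : y * x * y * x = x⁻¹ * (x * y * (x * y)) * x := by group
              rw [h5, hxy]
              group
            rw [h4]
            group
    · -- `sqs X = W` is a `K`-invariant subgroup of index 2 of `zc X`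
      have hEq : sqs X = zc X ⊓ M := by
        apply Subgroup.eq_of_le_of_card_ge hsqW
        rw [h2, hWcard]
      have hno := (hmf (zc X) hZX hmin).noidx2 (zc X ⊓ M) inf_le_left hWidx
      apply hno
      rw [← hEq]
      exact hsqK

end Cfsg.Agent.Helper47.N9
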