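import Mathlib
import Cfsg.Agent.Helper60.NCDefs

/-!
# CALL S4135, piece CONJCARD (helper47)

Conjugation is a bijection between the centralizers (inside a normal subgroup) of conjugate
elements.
-/

set_option autoImplicit false
open Subgroup

namespace Cfsg.Agent.Helper47.NCCONJCARD
open Cfsg.Agent.Helper60.NC

variable {G : Type*} [Group G] [Finite G] {r : ℕ} [Fact r.Prime] {N : Subgroup G} {m : ℕ}

/-- CONJCARD -/
theorem conj_card (N : Subgroup G) [N.Normal] (a v : G) :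
    Nat.card ↥(centralizer ({a⁻¹ * v * a} : Set G) ⊓ N) =
      Nat.card ↥(centralizer ({v} : Set G) ⊓ N) := by
  have hN : N.Normal := inferInstance
  have hf : ∀ x ∈ centralizer ({a⁻¹ * v * a} : Set G) ⊓ N,
      a * x * a⁻¹ ∈ centralizer ({v} : Set G) ⊓ N := by
    intro x hx'
    obtain ⟨hx0, hxN⟩ := Subgroup.mem_inf.1 hx'
    have hx : x * (a⁻¹ * v * a) = (a⁻¹ * v * a) * x :=
      Subgroup.mem_centralizer_singleton_iff.1 hx0
    refine Subgroup.mem_inf.2 ⟨Subgroup.mem_centralizer_singleton_iff.2 ?_, hN.conj_mem x hxN a⟩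
    calc a * x * a⁻¹ * v = a * (x * (a⁻¹ * v * a)) * a⁻¹ := by group
      _ = a * ((a⁻¹ * v * a) * x) * a⁻¹ := by rw [hx]
      _ = v * (a * x * a⁻¹) := by group
  have hg : ∀ y ∈ centralizer ({v} : Set G) ⊓ N,
      a⁻¹ * y * a ∈ centralizer ({a⁻¹ * v * a} : Set G) ⊓ N := by
    intro y hy'
    obtain ⟨hy0, hyN⟩ := Subgroup.mem_inf.1 hy'
    have hy : y * v = v * y := Subgroup.mem_centralizer_singleton_iff.1 hy0
    refine Subgroup.mem_inf.2 ⟨Subgroup.mem_centralizer_singleton_iff.2 ?_, ?_⟩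
    · calc a⁻¹ * y * a * (a⁻¹ * v * a) = a⁻¹ * (y * v) * a := by group
        _ = a⁻¹ * (v * y) * a := by rw [hy]
        _ = a⁻¹ * v * a * (a⁻¹ * y * a) := by group
    · have := hN.conj_mem y hyN a⁻¹
      rwa [inv_inv] at this
  refine Nat.card_congr
    { toFun := fun x => ⟨a * x.1 * a⁻¹, hf x.1 x.2⟩
      invFun := fun y => ⟨a⁻¹ * y.1 * a, hg y.1 y.2⟩
      left_inv := fun x => Subtype.ext (by show a⁻¹ * (a * x.1 * a⁻¹) * a = x.1; group)
      right_inv := fun y => Subtype.ext (by show a * (a⁻¹ * y.1 * a) * a⁻¹ = y.1; group) }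

end Cfsg.Agent.Helper47.NCCONJCARD
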