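import Mathlib
import Cfsg.Agent.Helper60.NCDefs

/-!
# CALL S4135, piece NORMZ (helper47)

If the commutator of `a` and `b` is central, each of them normalizes the centralizer of the other.
-/

set_option autoImplicit false
open Subgroup

namespace Cfsg.Agent.Helper47.NCNORMZ
open Cfsg.Agent.Helper60.NC

variable {G : Type*} [Group G] [Finite G] {r : ℕ} [Fact r.Prime] {N : Subgroup G} {m : ℕ}

omit [Finite G] in
theorem mem_normalizer_centralizer_of_conj (g x z : G) (hz : z ∈ center G)
    (h : g⁻¹ * x * g = x * z) : g ∈ normalizer (centralizer ({x} : Set G) : Set G) := by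
  rw [Subgroup.mem_normalizer_iff]
  intro k
  have hzc : ∀ y, y * z = z * y := fun y => Subgroup.mem_center_iff.1 hz y
  have hx : x = g * (x * z) * g⁻¹ := by rw [← h]; group
  rw [Subgroup.mem_centralizer_singleton_iff, Subgroup.mem_centralizer_singleton_iff]
  constructor
  · intro hk
    calc g * k * g⁻¹ * x = g * k * g⁻¹ * (g * (x * z) * g⁻¹) := by rw [← hx]
      _ = g * (k * x) * z * g⁻¹ := by group
      _ = g * (x * k) * z * g⁻¹ := by rw [hk]
      _ = g * x * (k * z) * g⁻¹ := by group
      _ = g * x * (z * k) * g⁻¹ := by rw [hzc k]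
      _ = (g * (x * z) * g⁻¹) * (g * k * g⁻¹) := by group
      _ = x * (g * k * g⁻¹) := by rw [← hx]
  · intro hk
    have h1 : k * (x * z) = (x * z) * k := by
      calc k * (x * z) = g⁻¹ * ((g * k * g⁻¹) * (g * (x * z) * g⁻¹)) * g := by group
        _ = g⁻¹ * ((g * k * g⁻¹) * x) * g := by rw [← hx]
        _ = g⁻¹ * (x * (g * k * g⁻¹)) * g := by rw [hk]
        _ = g⁻¹ * ((g * (x * z) * g⁻¹) * (g * k * g⁻¹)) * g := by rw [← hx]
        _ = (x * z) * k := by group
    have h2 : k * x * z = x * k * z := by
      calc k * x * z = k * (x * z) := by group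
        _ = (x * z) * k := h1
        _ = x * (z * k) := by group
        _ = x * (k * z) := by rw [hzc k]
        _ = x * k * z := by group
    exact mul_right_cancel h2

/-- NORMZ -/
theorem norm_z (a b : G) (hab : a⁻¹ * b⁻¹ * a * b ∈ center G) :
    b ∈ normalizer (centralizer ({a} : Set G) : Set G) ∧ a ∈ normalizer (centralizer ({b} : Set G) : Set G) := by
  refine ⟨mem_normalizer_centralizer_of_conj b a _ hab (by group),
    mem_normalizer_centralizer_of_conj a b _ (inv_mem hab) (by group)⟩

end Cfsg.Agent.Helper47.NCNORMZ
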