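import Mathlib
import Cfsg.Agent.Helper60.NCDefs

/-!
# CALL S4135, piece TCN (helper47)

The centralizer of `x` inside the subgroup `N` has the cardinality of `C_G(x) ⊓ N`.
-/

set_option autoImplicit false
open Subgroup

namespace Cfsg.Agent.Helper47.NCTCN
open Cfsg.Agent.Helper60.NC

variable {G : Type*} [Group G] [Finite G] {r : ℕ} [Fact r.Prime] {N : Subgroup G} {m : ℕ}

/-- TCN -/
theorem tcn (N : Subgroup G) (x : N) :
    Nat.card (centralizer ({x} : Set N)) = Nat.card ↥(centralizer ({(x : G)} : Set G) ⊓ N) := by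
  have h1 : ∀ y : N, y ∈ centralizer ({x} : Set N) →
      (y : G) ∈ centralizer ({(x : G)} : Set G) ⊓ N := by
    intro y hy
    have h := Subgroup.mem_centralizer_singleton_iff.1 hy
    exact Subgroup.mem_inf.2 ⟨Subgroup.mem_centralizer_singleton_iff.2 (congrArg Subtype.val h), y.2⟩
  have h2 : ∀ g : G, ∀ hg : g ∈ centralizer ({(x : G)} : Set G) ⊓ N,
      (⟨g, (Subgroup.mem_inf.1 hg).2⟩ : N) ∈ centralizer ({x} : Set N) := by
    intro g hg
    have h := Subgroup.mem_centralizer_singleton_iff.1 (Subgroup.mem_inf.1 hg).1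
    exact Subgroup.mem_centralizer_singleton_iff.2 (Subtype.ext h)
  exact Nat.card_congr
    { toFun := fun y => ⟨(y.1 : G), h1 y.1 y.2⟩
      invFun := fun g => ⟨⟨g.1, (Subgroup.mem_inf.1 g.2).2⟩, h2 g.1 g.2⟩
      left_inv := fun y => rfl
      right_inv := fun g => rfl }

end Cfsg.Agent.Helper47.NCTCN
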