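import Mathlib
import Cfsg.Agent.Helper16.NGDefs
import Cfsg.Agent.Helper1.Hall

/-!
# CALL S4404, piece HALL (helper47): a Hall `2'`-subgroup containing `Q` and a conjugate of `E`.
-/

set_option autoImplicit false

namespace Cfsg.Agent.Helper47.NGHALL
open Cfsg.Agent.Helper16.NG
open scoped Pointwise

variable {S : Type*} [Group S]

/-- HALL -/
theorem ng_hall [Finite S] [Group.IsSolvable S] (Q : Subgroup S) (hQ3 : IsPGroup 3 ↥Q) (p : ℕ)
    (hp : p.Prime) (hp2 : p ≠ 2) (E : Subgroup S) (hE : IsPGroup p ↥E) :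
    ∃ H : Subgroup S, Odd (Nat.card H) ∧ Q ≤ H ∧ ∃ g : S, ∀ e ∈ E, g * e * g⁻¹ ∈ H := by
  have hS0 : Nat.card S ≠ 0 := Nat.card_pos.ne'
  obtain ⟨k, hk⟩ : ∃ k, k = (Nat.card S).factorization 2 := ⟨_, rfl⟩
  obtain ⟨m, hm⟩ : ∃ m, m = Nat.card S / 2 ^ k := ⟨_, rfl⟩
  have hcard : Nat.card S = m * 2 ^ k := by
    rw [hm, hk, mul_comm]
    exact (Nat.ordProj_mul_ordCompl_eq_self (Nat.card S) 2).symm
  have hcop2 : Nat.Coprime 2 m := by
    rw [hm, hk]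
    exact Nat.coprime_ordCompl Nat.prime_two hS0
  have hmn : m.Coprime (2 ^ k) := (Nat.Coprime.pow_left k hcop2).symm
  have hmodd : Odd m := Nat.coprime_two_left.mp hcop2
  have h3 : Fact (Nat.Prime 3) := ⟨Nat.prime_three⟩
  have hpF : Fact p.Prime := ⟨hp⟩
  obtain ⟨a, ha⟩ := IsPGroup.iff_card.mp hQ3
  obtain ⟨b, hb⟩ := IsPGroup.iff_card.mp hE
  have hQcop : (Nat.card Q).Coprime (2 ^ k) := by
    rw [ha]
    exact Nat.Coprime.pow a k (by norm_num)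
  have hEcop : (Nat.card E).Coprime (2 ^ k) := by
    rw [hb]
    exact Nat.Coprime.pow b k ((Nat.coprime_primes hp Nat.prime_two).mpr hp2)
  obtain ⟨H, hH, hQH⟩ :=
    Cfsg.Agent.Helper1.hall_le_aux (Nat.card S) S m (2 ^ k) rfl hcard hmn Q hQcop
  obtain ⟨H', hH', hEH'⟩ :=
    Cfsg.Agent.Helper1.hall_le_aux (Nat.card S) S m (2 ^ k) rfl hcard hmn E hEcop
  obtain ⟨g, hg⟩ :=
    Cfsg.Agent.Helper1.hall_conj_aux (Nat.card S) S m (2 ^ k) rfl hcard hmn H' H hH' hH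
  refine ⟨H, by rw [hH]; exact hmodd, hQH, g, ?_⟩
  intro e he
  have h1 : MulAut.conj g • e ∈ MulAut.conj g • H' :=
    Subgroup.smul_mem_pointwise_smul e (MulAut.conj g) H' (hEH' he)
  rw [hg, MulAut.smul_def, MulAut.conj_apply] at h1
  exact h1

end Cfsg.Agent.Helper47.NGHALL
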