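import Mathlib
import Cfsg.Agent.Helper96.OHDefs
import Cfsg.Agent.Helper69.ODDefs
import Cfsg.Agent.Helper43.PrimeOrdO3
import Cfsg.Agent.Helper84.OTSBADAB
import Cfsg.Agent.Helper11.C3OFIXDIM

set_option autoImplicit false
set_option linter.unusedSectionVars false
set_option linter.unusedVariables false

/-!
# CALL OD (helper69), piece DBADM (helper47, double): an isometry of order `r` of the minus form
with fixed space of dimension exactly `(2d) % c`.

Twin of `Cfsg.Agent.Helper88.OH5992.o_bad`, with `Cfsg.Agent.Helper43.PrimeOrdO.oexists_minus`.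
-/

namespace Cfsg.Agent.Helper47.OD59

open Module Polynomial Cfsg Cfsg.Geo
open Cfsg.Agent.Helper13.TIu Cfsg.Agent.Helper96.OH Cfsg.Agent.Helper69.OD
open scoped MatrixGroups

/-- an element of order `r` of the minus form with prescribed characteristic polynomial: the fixed
space -/
theorem odbadm_key47 {F : Type*} [Field F] [Fintype F] (p : ℕ) [Fact p.Prime] [CharP F p]
    (r : ℕ) [Fact r.Prime] (hr2 : r ≠ 2) (hrp : r ≠ p) (d : ℕ) (hd : 1 ≤ d) (a b : F)
    (hab : ∀ x y : F, x ^ 2 + a * x * y + b * y ^ 2 = 0 → x = 0 ∧ y = 0) (c₀ : ℕ)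
    (cfun : F[X] → ℕ)
    (hsym : ∀ P ∈ Cfsg.Agent.Helper43.CycFactors.cycJ F r,
      cfun (Cfsg.Agent.Helper43.SpReal.star P) = cfun P)
    (hnz : ∃ P ∈ Cfsg.Agent.Helper43.CycFactors.cycJ F r, cfun P ≠ 0)
    (hdeg : c₀ + orderOf ((Fintype.card F : ℕ) : ZMod r) *
      ∑ P ∈ Cfsg.Agent.Helper43.CycFactors.cycJ F r, cfun P = 2 * d)
    (hcond : 0 < c₀ ∨ (¬ Odd (orderOf ((Fintype.card F : ℕ) : ZMod r)) ∧
      Odd (∑ P ∈ Cfsg.Agent.Helper43.CycFactors.cycJ F r, cfun P))) :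
    ∃ g : ↥(Cfsg.isometryGroup F (Cfsg.quadFormMinus (d - 1) F a b)), orderOf g = r ∧
      finrank F (LinearMap.ker (Matrix.toLin'
        ((g : Matrix.GeneralLinearGroup ((Fin (d - 1) ⊕ Fin (d - 1)) ⊕ Fin 2) F) :
          Matrix ((Fin (d - 1) ⊕ Fin (d - 1)) ⊕ Fin 2) ((Fin (d - 1) ⊕ Fin (d - 1)) ⊕ Fin 2) F)
        - 1)) = c₀ := by
  have hr : r.Prime := Fact.out
  have hrF : (r : F) ≠ 0 := Cfsg.Agent.Helper43.CycFactors.natCast_ne_zero_of_ne (p := p) hr hrp
  obtain ⟨g, hg, hch⟩ := Cfsg.Agent.Helper43.PrimeOrdO.oexists_minus (p := p)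
    (rfl : Fintype.card F = Fintype.card F) hd hr hr2 hrp a b hab c₀ cfun hsym hnz hdeg hcond
  refine ⟨g, hg, ?_⟩
  have hM : ((g : Matrix.GeneralLinearGroup ((Fin (d - 1) ⊕ Fin (d - 1)) ⊕ Fin 2) F) :
      Matrix ((Fin (d - 1) ⊕ Fin (d - 1)) ⊕ Fin 2) ((Fin (d - 1) ⊕ Fin (d - 1)) ⊕ Fin 2) F) ^ r
        = 1 := by
    have h := pow_orderOf_eq_one g
    rw [hg] at h
    have h' := congrArg (fun x : ↥(Cfsg.isometryGroup F (Cfsg.quadFormMinus (d - 1) F a b)) =>
      ((x : Matrix.GeneralLinearGroup ((Fin (d - 1) ⊕ Fin (d - 1)) ⊕ Fin 2) F) :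
        Matrix ((Fin (d - 1) ⊕ Fin (d - 1)) ⊕ Fin 2) ((Fin (d - 1) ⊕ Fin (d - 1)) ⊕ Fin 2) F)) h
    simpa using h'
  obtain ⟨M, hMdef⟩ : ∃ M : Matrix ((Fin (d - 1) ⊕ Fin (d - 1)) ⊕ Fin 2)
      ((Fin (d - 1) ⊕ Fin (d - 1)) ⊕ Fin 2) F,
      M = ((g : Matrix.GeneralLinearGroup ((Fin (d - 1) ⊕ Fin (d - 1)) ⊕ Fin 2) F) :
      Matrix ((Fin (d - 1) ⊕ Fin (d - 1)) ⊕ Fin 2) ((Fin (d - 1) ⊕ Fin (d - 1)) ⊕ Fin 2) F) :=
    ⟨_, rfl⟩
  rw [← hMdef] at hM hch ⊢
  apply le_antisymm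
  · have h1 := LinearMap.finrank_eigenspace_le (Matrix.toLin' M) (1 : F)
    rw [Matrix.charpoly_toLin', hch, Cfsg.Agent.Helper84.OTS.obadab_rootmult hr hrF] at h1
    have h2' : Module.End.eigenspace (Matrix.toLin' M) (1 : F) =
        LinearMap.ker (Matrix.toLin' M - 1) := by
      ext v
      rw [Module.End.mem_eigenspace_iff, LinearMap.mem_ker, LinearMap.sub_apply, sub_eq_zero,
        one_smul]
      rfl
    rw [h2'] at h1
    exact h1
  · exact Cfsg.Agent.Helper11.c3o_fixdim p hr hrp M hM c₀ cfun hch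

variable {ι : Type} [Fintype ι] [DecidableEq ι] {F : Type*} [Field F] (Q : (ι → F) → F)

theorem od_bad_minus [Fintype F] (p : ℕ) [Fact p.Prime] [CharP F p] (h2 : (2 : F) ≠ 0) (d : ℕ)
    (hd : 1 ≤ d) (a b : F) (hab : ∀ x y : F, x ^ 2 + a * x * y + b * y ^ 2 = 0 → x = 0 ∧ y = 0)
    (r : ℕ) [Fact r.Prime] (hr2 : 2 < r) (hrp : r ≠ p) (i c : ℕ)
    (hi : i = orderOf ((Fintype.card F : ℕ) : ZMod r)) (hc : c = if Even i then i else 2 * i)
    (hcn : c ≤ 2 * d) (hcond : 0 < (2 * d) % c ∨ (Even i ∧ Odd ((2 * d) / i))) :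
    ∃ g : GL ((Fin (d - 1) ⊕ Fin (d - 1)) ⊕ Fin 2) F,
      g ∈ Cfsg.isometryGroup F (Cfsg.quadFormMinus (d - 1) F a b) ∧ orderOf g = r ∧
      finrank F (LinearMap.ker (Matrix.toLin' (g : Matrix ((Fin (d - 1) ⊕ Fin (d - 1)) ⊕ Fin 2)
        ((Fin (d - 1) ⊕ Fin (d - 1)) ⊕ Fin 2) F) - 1)) = (2 * d) % c := by
  classical
  have hr : r.Prime := Fact.out
  have hrF : (r : F) ≠ 0 := Cfsg.Agent.Helper43.CycFactors.natCast_ne_zero_of_ne (p := p) hr hrp
  -- `i > 0`
  have hi0 : 0 < i := by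
    rw [hi, orderOf_pos_iff, isOfFinOrder_iff_isUnit, ZMod.isUnit_iff_coprime]
    obtain ⟨n, hpn, hcard⟩ := FiniteField.card F p
    rw [hcard]
    apply Nat.Coprime.pow_left
    exact (Nat.coprime_primes hpn hr).mpr (fun h => hrp h.symm)
  have hc0 : 0 < c := by
    rw [hc]
    split_ifs <;> omega
  have hu : 1 ≤ (2 * d) / c := Nat.div_pos hcn hc0
  have hdm := Nat.div_add_mod (2 * d) c
  have hcard := Cfsg.Agent.Helper43.CycFactors.cycJ_card_mul (p := p)
    (rfl : Fintype.card F = Fintype.card F) hr hrp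
  have hne : (Cfsg.Agent.Helper43.CycFactors.cycJ F r).Nonempty := by
    rw [Finset.nonempty_iff_ne_empty]
    intro h
    rw [h, Finset.card_empty, zero_mul] at hcard
    omega
  obtain ⟨P₀, hP₀⟩ := hne
  obtain ⟨u, hudef⟩ : ∃ u, u = (2 * d) / c := ⟨_, rfl⟩
  rw [← hudef] at hu hdm
  have key : ∃ g : ↥(Cfsg.isometryGroup F (Cfsg.quadFormMinus (d - 1) F a b)), orderOf g = r ∧
      finrank F (LinearMap.ker (Matrix.toLin'
        ((g : Matrix.GeneralLinearGroup ((Fin (d - 1) ⊕ Fin (d - 1)) ⊕ Fin 2) F) :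
          Matrix ((Fin (d - 1) ⊕ Fin (d - 1)) ⊕ Fin 2) ((Fin (d - 1) ⊕ Fin (d - 1)) ⊕ Fin 2) F)
        - 1)) = (2 * d) % c := by
    by_cases hev : Even i
    · rw [if_pos hev] at hc
      subst hc
      refine odbadm_key47 p r (by omega) hrp d hd a b hab ((2 * d) % c)
        (fun P => if P = P₀ then u else 0) ?_ ⟨P₀, hP₀, ?_⟩ ?_ ?_
      · intro P hP
        show (if Cfsg.Agent.Helper43.SpReal.star P = P₀ then u else 0) = if P = P₀ then u else 0
        rw [Cfsg.Agent.Helper43.StarPoly.star_eq_self_of_even (p := p)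
          (rfl : Fintype.card F = Fintype.card F) hr hrp (hi ▸ hev) hP]
      · show (if P₀ = P₀ then u else 0) ≠ 0
        rw [if_pos rfl]
        omega
      · rw [Finset.sum_ite_eq', if_pos hP₀, ← hi]
        omega
      · rw [Finset.sum_ite_eq', if_pos hP₀, ← hi]
        rcases hcond with h | ⟨_, h⟩
        · exact Or.inl h
        · refine Or.inr ⟨Nat.not_odd_iff_even.mpr hev, ?_⟩
          rw [hudef]
          exact h
    · rw [if_neg hev] at hc
      subst hc
      have hc0' : 0 < (2 * d) % (2 * i) := by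
        rcases hcond with h | ⟨h, _⟩
        · exact h
        · exact absurd h hev
      have hP₀' := Cfsg.Agent.Helper43.CycFactors.mem_cycJ.mp hP₀
      have hsP₀ : Cfsg.Agent.Helper43.SpReal.star P₀ ∈ Cfsg.Agent.Helper43.CycFactors.cycJ F r :=
        Cfsg.Agent.Helper43.StarPoly.star_mem_cycJ hr hrF hP₀
      have hss₀ : Cfsg.Agent.Helper43.SpReal.star (Cfsg.Agent.Helper43.SpReal.star P₀) = P₀ :=
        Cfsg.Agent.Helper43.StarPoly.star_star hP₀'.1
          (Cfsg.Agent.Helper43.StarPoly.coeff_zero_ne_of_mem hr hP₀)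
      refine odbadm_key47 p r (by omega) hrp d hd a b hab ((2 * d) % (2 * i))
        (fun P => (if P = P₀ then u else 0) +
          (if P = Cfsg.Agent.Helper43.SpReal.star P₀ then u else 0)) ?_ ⟨P₀, hP₀, ?_⟩ ?_
          (Or.inl hc0')
      · intro P hP
        have hP' := Cfsg.Agent.Helper43.CycFactors.mem_cycJ.mp hP
        have hss : Cfsg.Agent.Helper43.SpReal.star (Cfsg.Agent.Helper43.SpReal.star P) = P :=
          Cfsg.Agent.Helper43.StarPoly.star_star hP'.1
            (Cfsg.Agent.Helper43.StarPoly.coeff_zero_ne_of_mem hr hP)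
        have e1 : Cfsg.Agent.Helper43.SpReal.star P = P₀ ↔
            P = Cfsg.Agent.Helper43.SpReal.star P₀ := by
          constructor
          · intro h
            rw [← h, hss]
          · intro h
            rw [h, hss₀]
        have e2 : Cfsg.Agent.Helper43.SpReal.star P = Cfsg.Agent.Helper43.SpReal.star P₀ ↔
            P = P₀ := by
          constructor
          · intro h
            rw [← hss, h, hss₀]
          · intro h
            rw [h]
        show (if Cfsg.Agent.Helper43.SpReal.star P = P₀ then u else 0) +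
          (if Cfsg.Agent.Helper43.SpReal.star P = Cfsg.Agent.Helper43.SpReal.star P₀ then u
            else 0) = (if P = P₀ then u else 0) +
          (if P = Cfsg.Agent.Helper43.SpReal.star P₀ then u else 0)
        rw [if_congr e1 rfl rfl, if_congr e2 rfl rfl, add_comm]
      · show (if P₀ = P₀ then u else 0) +
          (if P₀ = Cfsg.Agent.Helper43.SpReal.star P₀ then u else 0) ≠ 0
        rw [if_pos rfl]
        omega
      · rw [Finset.sum_add_distrib, Finset.sum_ite_eq', Finset.sum_ite_eq', if_pos hP₀,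
          if_pos hsP₀, ← hi]
        have h3 : i * (u + u) = 2 * i * u := by ring
        omega
  obtain ⟨g, hg, hfix⟩ := key
  refine ⟨(g : Matrix.GeneralLinearGroup ((Fin (d - 1) ⊕ Fin (d - 1)) ⊕ Fin 2) F), g.2, ?_, hfix⟩
  rw [Subgroup.orderOf_coe]
  exact hg

end Cfsg.Agent.Helper47.OD59
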